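import Cfsg.Agent.H254.FxEvenTI
import Cfsg.Agent.H724.UThreeC

/-!
# `PSU_4(q)`, `q` odd: elements commuting with an involution (for S3002, S2993; task 2044)

* `exists_root` : `s² = μ²`, `s` without eigenvalue outside `±μ`;
* `exists_unip` : a unipotent element commuting with `s`;
* `exists_tor` : an element of prime order `r ∣ q + 1`, `r ∤ n`, commuting with `s`.
-/

set_option autoImplicit false
set_option linter.unusedSectionVars false
set_option linter.unusedFintypeInType false
set_option linter.unusedDecidableInType false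

namespace Cfsg.Agent.H223.EvU

open Subgroup Cfsg Matrix
open Cfsg.Agent.LieClassical.HermSiegel Cfsg.Agent.LieClassical.HermBasic
open Cfsg.Agent.ClassicalGeometry.PSUAutCount (gm toAut gm_mul gm_one gm_inv_mul gm_mul_inv gm_inv_mulVec
  gm_mulVec_inv gm_inj herm_gm sc gm_sc_mul)
open Cfsg.Agent.ClassicalGeometry.UnitAutBasic (pr pr_surjective exists_ne_zero_orth hL hL_apply
  exists_scalar_of_mem_center mem_center_of_scalar pr_eq_pr_iff)

variable {F : Type*} [Field F] [Fintype F] {q n : ℕ}

local notation "hh" => hermForm n F q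

/-- the data of a lift of an involution -/
structure Lift (hF : Fintype.card F = q ^ 2) (s : SU n F q) (μ : F) : Prop where
  two : (2 : F) ≠ 0
  sq : ∀ x, act s (act s x) = (μ * μ) • x
  norm : μ * μ ^ q = 1 ∨ μ * μ ^ q = -1
  ex_pos : ∃ x, x ≠ 0 ∧ act s x = μ • x
  ex_neg : ∃ x, x ≠ 0 ∧ act s x = (-μ) • x

theorem Lift.ne {hF : Fintype.card F = q ^ 2} {s : SU n F q} {μ : F} (h : Lift hF s μ) : μ ≠ 0 := by
  rintro rfl
  rcases h.norm with h1 | h1
  · rw [zero_mul] at h1
    exact zero_ne_one h1
  · rw [zero_mul] at h1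
    have : (1 : F) = 0 := by linear_combination h1
    exact one_ne_zero this

theorem Lift.neg {hF : Fintype.card F = q ^ 2} {s : SU n F q} {μ : F} (h : Lift hF s μ) : Lift hF s (-μ) where
  two := h.two
  sq x := by rw [h.sq, neg_mul_neg]
  norm := by rw [neg_pow_q hF, neg_mul_neg]; exact h.norm
  ex_pos := h.ex_neg
  ex_neg := by rw [neg_neg]; exact h.ex_pos

/-- every lift of an involution of `PSU_n(q)`, `q` odd -/
theorem exists_lift (hF : Fintype.card F = q ^ 2) (hn : 3 ≤ n) (h2 : (2 : F) ≠ 0) (ho : Odd q) {t : PSU n F q}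
    (ht : orderOf t = 2) : ∃ (s : SU n F q) (μ : F), pr n F q s = t ∧ Lift hF s μ := by
  obtain ⟨s, rfl⟩ := pr_surjective t
  have ht2 : pr n F q (s * s) = 1 := by
    rw [map_mul, ← pow_two, ← ht, pow_orderOf_eq_one]
  have ht1 : pr n F q s ≠ 1 := by
    intro h
    rw [h, orderOf_one] at ht
    omega
  obtain ⟨l, hl, hs⟩ := exists_scalar_of_mem_center hF hn ((QuotientGroup.eq_one_iff _).1 ht2)
  have hl0 : l ≠ 0 := left_ne_zero_of_mul_eq_one hl
  obtain ⟨μ, hμ⟩ : IsSquare l := by
    rw [FiniteField.isSquare_iff _ hl0]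
    · obtain ⟨k, hk⟩ := ho
      have h1 : Fintype.card F / 2 = (q + 1) * k := by
        rw [hF, hk]
        have : (2 * k + 1) ^ 2 = 2 * ((2 * k + 1 + 1) * k) + 1 := by ring
        omega
      rw [h1, pow_mul, pow_succ', hl, one_pow]
    · intro hc
      apply h2
      have := ringChar.Nat.cast_ringChar (R := F)
      rw [hc] at this
      exact_mod_cast this
  have hsq : ∀ x, act s (act s x) = (μ * μ) • x := by
    intro x
    rw [← act_mul, hs, hμ]
  have hμ0 : μ ≠ 0 := by
    rintro rfl
    rw [mul_zero] at hμ
    exact hl0 hμ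
  have hnorm : μ * μ ^ q = 1 ∨ μ * μ ^ q = -1 := by
    rw [hμ, mul_pow] at hl
    have : (μ * μ ^ q) * (μ * μ ^ q) = 1 := by linear_combination hl
    exact mul_self_eq_one_iff.1 this
  refine ⟨s, μ, rfl, h2, hsq, hnorm, ?_, ?_⟩
  · by_contra hcon
    push Not at hcon
    apply ht1
    apply (QuotientGroup.eq_one_iff _).2
    apply mem_center_of_scalar (c := -μ)
    intro x
    have h1 : act s (act s x + μ • x) = μ • (act s x + μ • x) := by
      rw [act_add, act_smul, hsq, smul_add, smul_smul]
      abel
    by_contra h3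
    refine hcon _ (fun h4 => h3 ?_) h1
    rw [neg_smul]
    exact eq_neg_of_add_eq_zero_left h4
  · by_contra hcon
    push Not at hcon
    apply ht1
    apply (QuotientGroup.eq_one_iff _).2
    apply mem_center_of_scalar (c := μ)
    intro x
    have h1 : act s (act s x - μ • x) = (-μ) • (act s x - μ • x) := by
      rw [act_sub, act_smul, hsq, smul_sub, smul_smul, neg_mul, neg_smul, neg_smul]
      abel
    by_contra h3
    exact hcon _ (fun h4 => h3 (sub_eq_zero.1 h4)) h1

/-- the eigenspace -/
def Eg (s : SU n F q) (μ : F) : Submodule F (Fin n → F) where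
  carrier := {x | act s x = μ • x}
  zero_mem' := by
    show act s 0 = μ • (0 : Fin n → F)
    rw [act_zero, smul_zero]
  add_mem' := by
    intro x y hx hy
    show act s (x + y) = μ • (x + y)
    rw [act_add, hx, hy, smul_add]
  smul_mem' := by
    intro c x hx
    show act s (c • x) = μ • (c • x)
    rw [act_smul, hx, smul_comm]

omit [Fintype F] in
theorem mem_Eg {s : SU n F q} {μ : F} {x : Fin n → F} : x ∈ Eg s μ ↔ act s x = μ • x := Iff.rfl

theorem finrank_Eg {hF : Fintype.card F = q ^ 2} {s : SU n F q} {μ : F} (h : Lift hF s μ) :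
    Module.finrank F (Eg s μ) + Module.finrank F (Eg s (-μ)) = n := by
  have h1 := Submodule.finrank_sup_add_finrank_inf_eq (Eg s μ) (Eg s (-μ))
  have h2 : Eg s μ ⊓ Eg s (-μ) = ⊥ := by
    rw [eq_bot_iff]
    rintro x ⟨hx, hx'⟩
    have hx1 : act s x = μ • x := hx
    have hx2 : act s x = (-μ) • x := hx'
    rw [hx1] at hx2
    have h3 : (2 * μ) • x = 0 := by
      have := sub_eq_zero.2 hx2
      rw [← sub_smul] at this
      rw [← this]
      congr 1
      ring
    exact (smul_eq_zero.1 h3).resolve_left (mul_ne_zero h.two h.ne)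
  have h3 : Eg s μ ⊔ Eg s (-μ) = ⊤ := by
    rw [eq_top_iff]
    intro x _
    have hμ := h.ne
    have h2 := h.two
    have e : x = ((2 * μ)⁻¹ • (act s x + μ • x)) + ((-(2 * μ)⁻¹) • (act s x - μ • x)) := by
      funext i
      simp only [Pi.add_apply, Pi.sub_apply, Pi.smul_apply, smul_eq_mul]
      field_simp
      ring
    rw [e]
    apply Submodule.add_mem_sup
    · apply Submodule.smul_mem
      show act s (act s x + μ • x) = μ • (act s x + μ • x)
      rw [act_add, act_smul, h.sq, smul_add, smul_smul]
      abel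
    · apply Submodule.smul_mem
      show act s (act s x - μ • x) = (-μ) • (act s x - μ • x)
      rw [act_sub, act_smul, h.sq, smul_sub, smul_smul, neg_mul, neg_smul, neg_smul]
      abel
  rw [h2, h3, finrank_bot, finrank_top, add_zero] at h1
  rw [← h1]
  simp

omit [Fintype F] in
/-- perpendicular vectors in a subspace of dimension at least two -/
theorem exists_perp {W : Submodule F (Fin n → F)} (hW : 2 ≤ Module.finrank F W) (v : Fin n → F) :
    ∃ x ∈ W, x ≠ 0 ∧ hh x v = 0 := by
  have h : LinearMap.ker ((hL n q v).comp W.subtype) ≠ ⊥ := by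
    apply LinearMap.ker_ne_bot_of_finrank_lt
    rw [Module.finrank_self]
    omega
  obtain ⟨x, hx, hx0⟩ := (Submodule.ne_bot_iff _).1 h
  refine ⟨x, x.2, fun h1 => hx0 (Subtype.ext h1), ?_⟩
  exact hx

/-- isotropic vectors in a subspace of dimension at least two -/
theorem exists_iso (hF : Fintype.card F = q ^ 2) {W : Submodule F (Fin n → F)} (hW : 2 ≤ Module.finrank F W) :
    ∃ x ∈ W, x ≠ 0 ∧ hh x x = 0 := by
  by_contra hcon
  push Not at hcon
  have hnt : ∃ e ∈ W, e ≠ 0 := by
    apply (Submodule.ne_bot_iff _).1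
    rintro rfl
    rw [finrank_bot] at hW
    omega
  obtain ⟨e, he, he0⟩ := hnt
  obtain ⟨f, hf, hf0, hfe⟩ := exists_perp (q := q) hW e
  have hee := hcon e he he0
  have hff := hcon f hf hf0
  have hef := herm_eq_zero_swap hF hfe
  obtain ⟨a, ha⟩ := exists_norm_eq hF (c := -(hh e e / hh f f)) (by
    rw [neg_pow_q hF, div_pow, herm_self_pow hF, herm_self_pow hF])
  refine hcon (e + a • f) (W.add_mem he (W.smul_mem _ hf)) ?_ ?_
  · intro h
    have h1 : hh (e + a • f) e = 0 := by rw [h, herm_zero_left]
    rw [herm_add_left, herm_smul_left, hfe, mul_zero, add_zero] at h1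
    exact hee h1
  · rw [herm_add_left, herm_add_right hF, herm_add_right hF, herm_smul_left, herm_smul_right, herm_smul_left,
      herm_smul_right, hef, hfe]
    have h1 : a * (a ^ q * hh f f) = -hh e e := by
      rw [← mul_assoc, ha, neg_mul, div_mul_cancel₀ _ hff]
    linear_combination h1

/-- the form and eigenvectors -/
theorem herm_act_eig {hF : Fintype.card F = q ^ 2} {s : SU n F q} {ν : F} (hν : ν * ν ^ q = 1) {v : Fin n → F}
    (hv : act s v = ν • v) (x : Fin n → F) : hh (act s x) v = ν * hh x v := by
  have h1 := herm_act s x v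
  rw [hv, herm_smul_right] at h1
  linear_combination ν * h1 - hh (act s x) v * hν

/-- **Unipotent elements commuting with a lift of an involution.** -/
theorem exists_unip (hF : Fintype.card F = q ^ 2) (hn : 4 ≤ n) {s : SU n F q} {μ : F} (h : Lift hF s μ) :
    ∃ y : SU n F q, s * y = y * s ∧ y ≠ 1 ∧ ∀ x, act y (act y x - x) = act y x - x := by
  -- the larger eigenspace
  obtain ⟨ν, h', hdim⟩ : ∃ ν, Lift hF s ν ∧ 2 ≤ Module.finrank F (Eg s ν) := by
    have h1 := finrank_Eg h
    by_cases h2 : 2 ≤ Module.finrank F (Eg s μ)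
    · exact ⟨μ, h, h2⟩
    · exact ⟨-μ, h.neg, by omega⟩
  have hν0 := h'.ne
  have h2 := h'.two
  rcases h'.norm with hν | hν
  · -- a transvection
    obtain ⟨v, hv, hv0, hvv⟩ := exists_iso hF hdim
    obtain ⟨a, ha0, ha⟩ := exists_trace_zero_ne hF
    have hsg : IsSiegel q v 0 a := ⟨hvv, herm_zero_left v, by rw [herm_zero_left, add_zero]; exact ha⟩
    have hy : ∀ x, act (siegel hF v 0 a hsg) x = x + (a * hh x v) • v := by
      intro x
      rw [act_siegel, herm_zero_right hF, smul_zero, add_zero, sub_zero]
    refine ⟨siegel hF v 0 a hsg, ?_, ?_, ?_⟩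
    · apply ext_act
      intro x
      rw [act_mul, act_mul, hy, hy, act_add, act_smul, herm_act_eig (hF := hF) hν hv, mem_Eg.1 hv, smul_smul]
      congr 2
      ring
    · intro h1
      obtain ⟨x, hx⟩ := exists_herm_ne_zero hF hv0
      have h3 := hy x
      rw [h1, act_one] at h3
      have h4 : (a * hh x v) • v = 0 := by
        have := congrArg (fun z => z - x) h3
        simpa using this.symm
      rcases smul_eq_zero.1 h4 with h5 | h5
      · rcases mul_eq_zero.1 h5 with h6 | h6
        · exact ha0 h6
        · exact hx (herm_eq_zero_swap hF h6)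
      · exact hv0 h5
    · intro x
      have e : act (siegel hF v 0 a hsg) x - x = (a * hh x v) • v := by rw [hy]; abel
      rw [e, hy, herm_smul_left, hvv]
      simp
  · -- a Siegel element
    obtain ⟨v, hv0, hv⟩ := h'.ex_neg
    obtain ⟨w, hw, hw0, hwv⟩ := exists_perp (q := q) hdim v
    have hws : act s w = ν • w := hw
    have hvv : hh v v = 0 := by
      have h1 := herm_act s v v
      rw [hv, herm_smul_left, herm_smul_right, neg_pow_q hF] at h1
      have h3 : 2 * hh v v = 0 := by linear_combination hν * hh v v - h1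
      exact (mul_eq_zero.1 h3).resolve_left h2
    have hww : hh w w = 0 := by
      have h1 := herm_act s w w
      rw [hws, herm_smul_left, herm_smul_right] at h1
      have h3 : 2 * hh w w = 0 := by linear_combination hν * hh w w - h1
      exact (mul_eq_zero.1 h3).resolve_left h2
    have hvw := herm_eq_zero_swap hF hwv
    have hsg : IsSiegel q v w 0 := ⟨hvv, hwv, by rw [hww, zero_pow_q hF]; ring⟩
    have hy : ∀ x, act (siegel hF v w 0 hsg) x = x + hh x v • w - hh x w • v := by
      intro x
      rw [act_siegel, zero_mul, zero_sub, neg_smul]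
      abel
    have hsv : ∀ x, hh (act s x) v = ν * hh x v := by
      intro x
      have h1 := herm_act s x v
      rw [hv, herm_smul_right, neg_pow_q hF] at h1
      linear_combination ν * h1 + hh (act s x) v * hν
    have hsw : ∀ x, hh (act s x) w = -(ν * hh x w) := by
      intro x
      have h1 := herm_act s x w
      rw [hws, herm_smul_right] at h1
      linear_combination -ν * h1 + (hh (act s x) w) * hν
    refine ⟨siegel hF v w 0 hsg, ?_, ?_, ?_⟩
    · apply ext_act
      intro x
      rw [act_mul, act_mul, hy, hy, act_sub, act_add, act_smul, act_smul, hsv, hsw, hws, hv, smul_smul, smul_smul]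
      funext i
      simp only [Pi.add_apply, Pi.sub_apply, Pi.smul_apply, smul_eq_mul]
      ring
    · intro h1
      -- `w` and `v` are independent
      obtain ⟨x, hx⟩ := exists_herm_ne_zero hF hv0
      have h3 := hy x
      rw [h1, act_one] at h3
      have h4 : hh x v • w = hh x w • v := by
        have := congrArg (fun z => z - x + hh x w • v) h3
        simp only [sub_self, zero_add] at this
        rw [this]
        abel
      have h5 := congrArg (act s) h4
      rw [act_smul, act_smul, hws, hv, smul_smul, smul_smul, mul_comm, mul_smul, h4, smul_smul] at h5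
      have h6 : (2 * ν * hh x w) • v = 0 := by
        have := sub_eq_zero.2 h5
        rw [← sub_smul] at this
        rw [← this]
        congr 1
        ring
      have h7 : hh x w = 0 := by
        rcases smul_eq_zero.1 h6 with h8 | h8
        · exact (mul_eq_zero.1 h8).resolve_left (mul_ne_zero h2 hν0)
        · exact absurd h8 hv0
      rw [h7, zero_smul] at h4
      rcases smul_eq_zero.1 h4 with h8 | h8
      · exact hx (herm_eq_zero_swap hF h8)
      · exact hw0 h8
    · intro x
      have e : act (siegel hF v w 0 hsg) x - x = hh x v • w - hh x w • v := by rw [hy]; abel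
      rw [e, hy, herm_sub_left, herm_smul_left, herm_smul_left, herm_sub_left, herm_smul_left, herm_smul_left, hvv,
        hww, hvw, hwv]
      simp

end Cfsg.Agent.H223.EvU
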