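import Cfsg.Agent.H223.NoEvU4A

/-!
# `PSU_4(q)`, `q` odd: elements of order `r ∣ q + 1` commuting with an involution (task 2044)
-/

set_option autoImplicit false
set_option linter.unusedSectionVars false
set_option linter.unusedFintypeInType false
set_option linter.unusedDecidableInType false

namespace Cfsg.Agent.H223.EvU

open Subgroup Cfsg Matrix
open Cfsg.Agent.LieClassical.HermSiegel Cfsg.Agent.LieClassical.HermBasic
open Cfsg.Agent.ClassicalGeometry.PSUAutCount (gm toAut gm_mul gm_one gm_inv_mul gm_mul_inv gm_inv_mulVec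
  gm_mulVec_inv gm_inj herm_gm sc gm_sc_mul)
open Cfsg.Agent.ClassicalGeometry.UnitAutBasic (pr pr_surjective exists_ne_zero_orth hL hL_apply
  exists_scalar_of_mem_center mem_center_of_scalar pr_eq_pr_iff)
open Cfsg.Agent.H724.UThree (toGU gm_toGU exists_toGU toGU_pow toGU_injective gm_pow exists_gen_norm)

variable {F : Type*} [Field F] [Fintype F] {q n : ℕ}

local notation "hh" => hermForm n F q

theorem tor_of_proj (hF : Fintype.card F = q ^ 2) {s : SU n F q} {P : (Fin n → F) →ₗ[F] (Fin n → F)}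
    (hPP : ∀ x, P (P x) = P x) (hsa : ∀ x z, hh (P x) z = hh x (P z)) (hsP : ∀ x, act s (P x) = P (act s x))
    {x0 x1 : Fin n → F} (hx0 : x0 ≠ 0) (hP0 : P x0 = x0) (hx1 : x1 ≠ 0) (hP1 : P x1 = 0) {r : ℕ} [hrp : Fact r.Prime]
    (hr : r ∣ q + 1) (hrn : ¬ r ∣ n) :
    ∃ y : SU n F q, s * y = y * s ∧ y ^ r = 1 ∧ ¬ ∃ κ : F, ∀ x, act y x = κ • x := by
  -- the scalar
  obtain ⟨c, hc, hcr, hc1⟩ : ∃ c : F, c * c ^ q = 1 ∧ c ^ r = 1 ∧ c ≠ 1 := by
    obtain ⟨g, hg1, hg⟩ := exists_gen_norm hF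
    obtain ⟨m, hm⟩ := hr
    have hgq : g ^ (q + 1) = 1 := by rw [pow_succ', hg1]
    refine ⟨g ^ m, ?_, ?_, ?_⟩
    · rw [← pow_succ', ← pow_mul, mul_comm, pow_mul, hgq, one_pow]
    · rw [← pow_mul, mul_comm, ← hm, hgq]
    · intro h
      have hm0 : 0 < m := by
        rcases Nat.eq_zero_or_pos m with h1 | h1
        · rw [h1, mul_zero] at hm
          omega
        · exact h1
      have h1 := Nat.le_of_dvd hm0 (hg m h)
      have h2 : 2 * m ≤ r * m := Nat.mul_le_mul_right m hrp.out.two_le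
      omega
  obtain ⟨M, hM⟩ : ∃ M : Matrix (Fin n) (Fin n) F, ∀ x, M *ᵥ x = x + (c - 1) • P x :=
    ⟨LinearMap.toMatrix' (LinearMap.id + (c - 1) • P), fun x => by rw [LinearMap.toMatrix'_mulVec]; rfl⟩
  have hiso : ∀ u v : Fin n → F, hh (M *ᵥ u) (M *ᵥ v) = hh u v := by
    intro u v
    rw [hM, hM, herm_add_left, herm_add_right hF, herm_add_right hF, herm_smul_left, herm_smul_right, herm_smul_left,
      herm_smul_right, ← hsa u v, hsa u (P v), hPP, ← hsa, sub_pow_q hF, one_pow]
    linear_combination hh (P u) v * hc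
  obtain ⟨A, hA⟩ : ∃ A : GU n F q, gm A = M :=
    ⟨LieClassical.GUOrder.mkGU hF M hiso, LieClassical.GUOrder.coe_mkGU hF M hiso⟩
  have hpow : ∀ k : ℕ, ∀ x, M ^ k *ᵥ x = x + (c ^ k - 1) • P x := by
    intro k
    induction k with
    | zero => intro x; rw [pow_zero, one_mulVec, pow_zero, sub_self, zero_smul, add_zero]
    | succ k ih =>
      intro x
      rw [pow_succ, ← mulVec_mulVec, hM, ih, map_add, map_smul, hPP, pow_succ]
      funext i
      simp only [Pi.add_apply, Pi.smul_apply, smul_eq_mul]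
      ring
  have hMr : M ^ r = 1 := by
    apply Matrix.ext_of_mulVec_single
    intro i
    rw [hpow, hcr, sub_self, zero_smul, add_zero, one_mulVec]
  obtain ⟨δ, hδ⟩ : ∃ δ, δ = M.det := ⟨_, rfl⟩
  have hδr : δ ^ r = 1 := by rw [hδ, ← Matrix.det_pow, hMr, Matrix.det_one]
  obtain ⟨m, k, hmk⟩ : ∃ m k : ℕ, n * m + 1 = r * k := by
    have hcop : Nat.Coprime n r := Nat.Coprime.symm ((Nat.Prime.coprime_iff_not_dvd hrp.out).2 hrn)
    obtain ⟨a, -, ha⟩ := Nat.exists_mul_mod_eq_one_of_coprime hcop hrp.out.one_lt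
    refine ⟨a * (r - 1), a * n - n * a / r, ?_⟩
    have h1 := Nat.div_add_mod (n * a) r
    rw [ha] at h1
    have h2 := hrp.out.two_le
    have h3 : n * a / r ≤ a * n := by rw [mul_comm a n]; exact Nat.div_le_self _ _
    zify [h3, (by omega : 1 ≤ r)] at h1 ⊢
    linear_combination h1
  obtain ⟨d, hd⟩ : ∃ d, d = δ ^ m := ⟨_, rfl⟩
  have hdn : d ^ n * δ = 1 := by
    rw [hd, ← pow_mul, ← pow_succ, mul_comm m n, hmk, pow_mul, hδr, one_pow]
  have hdr : d ^ r = 1 := by rw [hd, ← pow_mul, mul_comm, pow_mul, hδr, one_pow]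
  have hdq : d * d ^ q = 1 := by
    obtain ⟨j, hj⟩ := hr
    rw [← pow_succ', hj, pow_mul, hdr, one_pow]
  have hd0 : d ≠ 0 := left_ne_zero_of_mul_eq_one hdq
  obtain ⟨B, hB⟩ : ∃ B : GU n F q, gm B = d • M := ⟨sc n ⟨d, hdq⟩ * A, by rw [gm_sc_mul, hA]⟩
  obtain ⟨y, hy⟩ := exists_toGU B (by rw [hB, Matrix.det_smul, Fintype.card_fin, ← hδ, hdn])
  have hyx : ∀ x, act y x = d • (x + (c - 1) • P x) := by
    intro x
    rw [act_def, ← gm_toGU, hy, hB, smul_mulVec, hM]
  refine ⟨y, ?_, ?_, ?_⟩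
  · apply ext_act
    intro x
    rw [act_mul, act_mul, hyx, hyx, act_smul, act_add, act_smul, hsP]
  · apply toGU_injective
    rw [toGU_pow, hy]
    apply gm_inj
    rw [gm_pow, hB, smul_pow, hdr, hMr, one_smul]
    rfl
  · rintro ⟨κ, hκ⟩
    have h1 := hκ x1
    rw [hyx, hP1, smul_zero, add_zero] at h1
    have h2 := hκ x0
    rw [hyx, hP0] at h2
    have h3 : d = κ := by
      have := sub_eq_zero.2 h1
      rw [← sub_smul] at this
      exact sub_eq_zero.1 ((smul_eq_zero.1 this).resolve_right hx1)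
    have h4 : (d * (c - 1)) • x0 = 0 := by
      rw [← h3] at h2
      have := sub_eq_zero.2 h2
      rw [← this]
      funext i
      simp only [Pi.add_apply, Pi.sub_apply, Pi.smul_apply, smul_eq_mul]
      ring
    rcases smul_eq_zero.1 h4 with h5 | h5
    · exact (mul_ne_zero hd0 (sub_ne_zero.2 hc1)) h5
    · exact hx0 h5

/-- scaling -/
theorem exists_unit (hF : Fintype.card F = q ^ 2) {v : Fin n → F} (hv : hh v v ≠ 0) :
    ∃ l : F, l ≠ 0 ∧ hh (l • v) (l • v) = 1 := by
  obtain ⟨l, hl0, hl⟩ := exists_norm_eq_ne hF (c := (hh v v)⁻¹)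
    (by rw [inv_pow, herm_self_pow hF]) (inv_ne_zero hv)
  refine ⟨l, hl0, ?_⟩
  rw [herm_smul_left, herm_smul_right, ← mul_assoc, hl, inv_mul_cancel₀ hv]

/-- the decomposition of a vector -/
theorem exists_decomp {hF : Fintype.card F = q ^ 2} {s : SU n F q} {μ : F} (h : Lift hF s μ) (x : Fin n → F) :
    ∃ a b : Fin n → F, act s a = μ • a ∧ act s b = (-μ) • b ∧ x = a + b := by
  have hμ := h.ne
  have h2 := h.two
  refine ⟨(2 * μ)⁻¹ • (act s x + μ • x), (-(2 * μ)⁻¹) • (act s x - μ • x), ?_, ?_, ?_⟩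
  · rw [act_smul, act_add, act_smul, h.sq]
    funext i
    simp only [Pi.add_apply, Pi.smul_apply, smul_eq_mul]
    ring
  · rw [act_smul, act_sub, act_smul, h.sq]
    funext i
    simp only [Pi.sub_apply, Pi.smul_apply, smul_eq_mul]
    ring
  · funext i
    simp only [Pi.add_apply, Pi.sub_apply, Pi.smul_apply, smul_eq_mul]
    field_simp
    ring

/-- **Elements of order `r ∣ q + 1` commuting with a lift of an involution.** -/
theorem exists_tor (hF : Fintype.card F = q ^ 2) (hn : 3 ≤ n) {s : SU n F q} {μ : F} (h : Lift hF s μ) {r : ℕ}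
    [hrp : Fact r.Prime] (hr : r ∣ q + 1) (hrn : ¬ r ∣ n) :
    ∃ y : SU n F q, s * y = y * s ∧ y ^ r = 1 ∧ ¬ ∃ κ : F, ∀ x, act y x = κ • x := by
  have hq := two_le hF
  have h2 := h.two
  rcases h.norm with hμ | hμ
  · -- a nonisotropic eigenvector
    obtain ⟨ν, e, hν, hse, hee⟩ : ∃ (ν : F) (e : Fin n → F), ν * ν ^ q = 1 ∧ act s e = ν • e ∧ hh e e ≠ 0 := by
      by_contra hcon
      push Not at hcon
      obtain ⟨x, hx⟩ : ∃ x : Fin n → F, hh x x = 1 := by
        refine ⟨Pi.single ⟨0, by omega⟩ 1, ?_⟩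
        rw [herm_single_left, Pi.single_eq_same, one_pow, mul_one]
      obtain ⟨a, b, ha, hb, rfl⟩ := exists_decomp h x
      have ha' := hcon μ a hμ ha
      have hb' := hcon (-μ) b (by rw [neg_pow_q hF, neg_mul_neg]; exact hμ) hb
      have hab : hh a b = 0 := by
        have h1 := herm_act s a b
        rw [ha, hb, herm_smul_left, herm_smul_right, neg_pow_q hF] at h1
        have h3 : 2 * hh a b = 0 := by linear_combination -h1 - hμ * hh a b
        exact (mul_eq_zero.1 h3).resolve_left h2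
      rw [herm_add_left, herm_add_right hF, herm_add_right hF, ha', hb', hab, herm_eq_zero_swap hF hab] at hx
      exact zero_ne_one (by linear_combination hx)
    obtain ⟨l, hl0, hl⟩ := exists_unit hF hee
    obtain ⟨f, hf⟩ : ∃ f, f = l • e := ⟨_, rfl⟩
    rw [← hf] at hl
    have hsf : act s f = ν • f := by rw [hf, act_smul, hse, smul_comm]
    let P : (Fin n → F) →ₗ[F] (Fin n → F) := (hL n q f).smulRight f
    have hP : ∀ x, P x = hh x f • f := fun x => rfl
    obtain ⟨x1, hx1, hx1f, -⟩ := exists_ne_zero_orth (q := q) hn f f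
    refine tor_of_proj hF (P := P) (x0 := f) (x1 := x1) ?_ ?_ ?_ ?_ ?_ hx1 ?_ hr hrn
    · intro x
      rw [hP, hP, herm_smul_left, hl, mul_one]
    · intro x z
      rw [hP, hP, herm_smul_left, herm_smul_right, ← herm_swap hF, mul_comm]
    · intro x
      rw [hP, hP, act_smul, hsf, herm_act_eig (hF := hF) hν hsf, smul_smul, mul_comm]
    · rintro rfl
      rw [herm_zero_left] at hl
      exact zero_ne_one hl
    · rw [hP, hl, one_smul]
    · rw [hP, hx1f, zero_smul]
  · -- a hyperbolic plane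
    obtain ⟨v, hv0, hv⟩ := h.ex_pos
    obtain ⟨x, hx⟩ := exists_herm_ne_zero hF hv0
    obtain ⟨a, b, ha, hb, rfl⟩ := exists_decomp h x
    have hva : hh v a = 0 := by
      have h1 := herm_act s v a
      rw [hv, ha, herm_smul_left, herm_smul_right] at h1
      have h3 : 2 * hh v a = 0 := by linear_combination hμ * hh v a - h1
      exact (mul_eq_zero.1 h3).resolve_left h2
    rw [herm_add_right hF, hva, zero_add] at hx
    obtain ⟨w, hwe⟩ : ∃ w, w = ((hh v b)⁻¹ ^ q) • b := ⟨_, rfl⟩
    have hw : act s w = (-μ) • w := by rw [hwe, act_smul, hb, smul_comm]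
    have hvw : hh v w = 1 := by
      rw [hwe, herm_smul_right, pow_q_pow_q hF, inv_mul_cancel₀ hx]
    have hwv : hh w v = 1 := by rw [herm_swap hF v w, hvw, one_pow]
    have hvv : hh v v = 0 := by
      have h1 := herm_act s v v
      rw [hv, herm_smul_left, herm_smul_right] at h1
      have h3 : 2 * hh v v = 0 := by linear_combination hμ * hh v v - h1
      exact (mul_eq_zero.1 h3).resolve_left h2
    have hww : hh w w = 0 := by
      have h1 := herm_act s w w
      rw [hw, herm_smul_left, herm_smul_right, neg_pow_q hF] at h1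
      have h3 : 2 * hh w w = 0 := by linear_combination hμ * hh w w - h1
      exact (mul_eq_zero.1 h3).resolve_left h2
    have hsv : ∀ x, hh (act s x) v = -(μ * hh x v) := by
      intro x
      have h1 := herm_act s x v
      rw [hv, herm_smul_right] at h1
      linear_combination -μ * h1 + (hh (act s x) v) * hμ
    have hsw : ∀ x, hh (act s x) w = μ * hh x w := by
      intro x
      have h1 := herm_act s x w
      rw [hw, herm_smul_right, neg_pow_q hF] at h1
      linear_combination μ * h1 + hh (act s x) w * hμ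
    let P : (Fin n → F) →ₗ[F] (Fin n → F) := (hL n q w).smulRight v + (hL n q v).smulRight w
    have hP : ∀ x, P x = hh x w • v + hh x v • w := fun x => rfl
    obtain ⟨x1, hx1, hx1v, hx1w⟩ := exists_ne_zero_orth (q := q) hn v w
    refine tor_of_proj hF (P := P) (x0 := v) (x1 := x1) ?_ ?_ ?_ hv0 ?_ hx1 ?_ hr hrn
    · intro x
      rw [hP x, hP, herm_add_left, herm_add_left, herm_smul_left, herm_smul_left, herm_smul_left, herm_smul_left, hvv,
        hww, hvw, hwv]
      simp
    · intro x z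
      rw [hP, hP, herm_add_left, herm_add_right hF, herm_smul_left, herm_smul_right, herm_smul_left, herm_smul_right,
        ← herm_swap hF, ← herm_swap hF]
      ring
    · intro x
      rw [hP, hP, act_add, act_smul, act_smul, hv, hw, hsv, hsw]
      funext i
      simp only [Pi.add_apply, Pi.smul_apply, smul_eq_mul]
      ring
    · rw [hP, hvw, hvv, one_smul, zero_smul, add_zero]
    · rw [hP, hx1v, hx1w, zero_smul, zero_smul, add_zero]

end Cfsg.Agent.H223.EvU
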