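import Mathlib
import Cfsg.Agent.H223.PMinGood
import Cfsg.Agent.FixBN.Split
import Cfsg.Agent.S0316

set_option autoImplicit false
set_option linter.style.haveILetI false
set_option linter.unusedSectionVars false

/-!
# Parabolic systems from split (B, N)-pairs
-/

namespace Cfsg.Agent.H223.PMinBN

open Subgroup Cfsg Cfsg.Agent.H223.PMinSys Cfsg.Agent.H223.PMinGood
open Cfsg.Agent.Schreier.BNSch Cfsg.Agent.FixBN

universe u v w

/-- a `p`-subgroup containing the `p`-elements of its normalizer is a Sylow subgroup -/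
theorem not_dvd_index {p : ℕ} [Fact p.Prime] {Y : Type v} [Group Y] [Finite Y] {U : Subgroup Y} (hU : IsPGroup p U)
    (h : ∀ g ∈ normalizer (U : Set Y), (∃ n, g ^ p ^ n = 1) → g ∈ U) : ¬ p ∣ U.index := by
  obtain ⟨S, hS⟩ := hU.exists_le_sylow
  have h1 : U = (S : Subgroup Y) := by
    by_contra hne
    have hlt : U < (S : Subgroup Y) := lt_of_le_of_ne hS hne
    haveI : Group.IsNilpotent S := S.isPGroup'.isNilpotent
    have h2 : U.subgroupOf S < ⊤ := by
      rw [lt_top_iff_ne_top, Ne, Subgroup.subgroupOf_eq_top]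
      exact not_le_of_gt hlt
    obtain ⟨x, hx, hxU⟩ := SetLike.exists_of_lt (Group.normalizerCondition_of_isNilpotent (G := S) _ h2)
    apply hxU
    rw [Subgroup.mem_subgroupOf]
    apply h
    · rw [Subgroup.mem_normalizer_iff] at hx ⊢
      intro u
      constructor
      · intro hu
        have := (hx ⟨u, hS hu⟩).1 hu
        exact this
      · intro hu
        have h3 : u ∈ (S : Subgroup Y) := by
          have h4 := mul_mem (mul_mem (inv_mem x.2) (hS hu)) x.2
          have h5 : (x : Y)⁻¹ * (x * u * (x : Y)⁻¹) * x = u := by group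
          rwa [h5] at h4
        exact (hx ⟨u, h3⟩).2 hu
    · obtain ⟨n, hn⟩ := S.isPGroup' x
      exact ⟨n, congrArg Subtype.val hn⟩
  rw [h1]
  exact S.not_dvd_index

variable {K : Type v} [Group K] (P : Cfsg.BNPair K) {p : ℕ} {U : Subgroup K}

/-- the parabolic system of a split (B, N)-pair -/
noncomputable def psys [Finite K] [Fact p.Prime] (hB : normalizer (U : Set K) = P.B) (hU : IsPGroup p U)
    (hp : ∀ g ∈ P.B, (∃ n, g ^ p ^ n = 1) → g ∈ U) : PSys p K P.S where
  U := U
  isP := hU
  idx := not_dvd_index hU fun g hg => hp g (hB ▸ hg)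
  e := (S0316.result P).choose.trans
    { toFun := fun Q => ⟨Q.1, hB.le.trans Q.2⟩
      invFun := fun Q => ⟨Q.1, hB.ge.trans Q.2⟩
      left_inv := fun _ => rfl
      right_inv := fun _ => rfl
      map_rel_iff' := Iff.rfl }

theorem psys_e [Finite K] [Fact p.Prime] (hB : normalizer (U : Set K) = P.B) (hU : IsPGroup p U)
    (hp : ∀ g ∈ P.B, (∃ n, g ^ p ^ n = 1) → g ∈ U) (J : Set P.S) :
    ((psys P hB hU hp).e J : Subgroup K) = P.parabolic (Subtype.val '' J) :=
  (S0316.result P).choose_spec J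

theorem pgood_of_hasSplit [Finite K] [Fact p.Prime] (h : HasSplit p K) (h1 : IsLieRankOneChar p K) :
    PGood.{u} p K := by
  obtain ⟨P, U, hS, h⟩ := h
  haveI : Nonempty P.S := hS.to_subtype
  exact pgood_of_rankOne (psys P h.normalizer_eq h.isP fun g hg ⟨n, hn⟩ => h.mem_of_pow hg hn) h1

/-- `V = ⋂ U^g` for `g` in the minimal parabolic subgroup -/
theorem mem_V_iff {V : Subgroup K} {s : K} (hs : s ∈ P.S) (hUB : U ≤ P.B) (N : Node P U s V) (u : K) :
    u ∈ V ↔ ∀ g ∈ P.parabolic {s}, g * u * g⁻¹ ∈ U := by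
  have hss : s * s ∈ P.B := P.sq_mem s hs
  constructor
  · intro hu g hg
    have hle : P.parabolic {s} ≤ normalizer (V : Set K) := by
      have hB : P.B ≤ normalizer (V : Set K) := by
        intro b hb
        rw [Subgroup.mem_normalizer_iff]
        intro v
        refine ⟨fun hv => N.conj_B b hb v hv, fun hv => ?_⟩
        have := N.conj_B b⁻¹ (inv_mem hb) _ hv
        have h2 : b⁻¹ * (b * v * b⁻¹) * b⁻¹⁻¹ = v := by group
        rwa [h2] at this
      refine sup_le hB ?_
      rw [Subgroup.closure_le, Set.singleton_subset_iff]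
      show s ∈ normalizer (V : Set K)
      rw [← inv_mem_iff, Subgroup.mem_normalizer_iff]
      intro v
      constructor
      · intro hv
        have := N.conj_s v hv
        rwa [inv_inv]
      · intro hv
        rw [inv_inv] at hv
        have h1 := N.conj_s _ hv
        have h2 := N.conj_B _ hss _ h1
        have h3 : s * s * (s⁻¹ * (s⁻¹ * v * s) * s) * (s * s)⁻¹ = v := by group
        rwa [h3] at h2
    exact N.le ((Subgroup.mem_normalizer_iff.1 (hle hg) u).1 hu)
  · intro h
    have h1 : u ∈ U := by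
      have := h 1 (one_mem _)
      simpa using this
    refine N.stab u h1 (hUB ?_)
    have h2 : s⁻¹ ∈ P.parabolic {s} :=
      inv_mem ((le_sup_right : Subgroup.closure {s} ≤ P.parabolic {s}) (Subgroup.subset_closure rfl))
    have := h s⁻¹ h2
    rwa [inv_inv] at this

/-- two nodes with non-conjugate groups `V` -/
theorem pgood_of_nodes [Finite K] [Fact p.Prime] (hB : normalizer (U : Set K) = P.B) (hU : IsPGroup p U)
    (hp : ∀ g ∈ P.B, (∃ n, g ^ p ^ n = 1) → g ∈ U) {s t : K} (hs : s ∈ P.S) (ht : t ∈ P.S) {V V' : Subgroup K}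
    (N : Node P U s V) (N' : Node P U t V')
    (h : ∀ α : MulAut K, U.map α.toMonoidHom = U → V.map α.toMonoidHom ≠ V') : PGood.{u} p K := by
  haveI : Nonempty P.S := ⟨⟨s, hs⟩⟩
  have hUB : U ≤ P.B := hB ▸ le_normalizer
  refine pgood_of_sep (psys P hB hU hp) (i := ⟨s, hs⟩) (j := ⟨t, ht⟩) fun α hα hP => ?_
  rw [psys_e, psys_e, Set.image_singleton, Set.image_singleton] at hP
  have hα' : U.map α.toMonoidHom = U := hα
  refine h α hα' ?_
  ext x
  rw [mem_V_iff P ht hUB N']
  constructor
  · rintro ⟨v, hv, rfl⟩ g hg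
    rw [← hP] at hg
    obtain ⟨k, hk, rfl⟩ := hg
    have h1 := (mem_V_iff P hs hUB N v).1 hv k hk
    have h2 : α (k * v * k⁻¹) ∈ U := by
      rw [← hα']
      exact ⟨_, h1, rfl⟩
    rw [map_mul, map_mul, map_inv] at h2
    exact h2
  · intro hx
    refine ⟨α⁻¹ x, ?_, MulAut.apply_inv_self _ α x⟩
    show α⁻¹ x ∈ V
    rw [mem_V_iff P hs hUB N]
    intro k hk
    have h1 : α k ∈ P.parabolic {t} := by
      rw [← hP]
      exact ⟨k, hk, rfl⟩
    have h2 := hx _ h1
    rw [← hα'] at h2
    obtain ⟨y, hy, e⟩ := h2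
    have h3 : k * α⁻¹ x * k⁻¹ = y := by
      apply α.injective
      rw [map_mul, map_mul, map_inv, MulAut.apply_inv_self]
      exact e.symm
    rw [h3]
    exact hy

end Cfsg.Agent.H223.PMinBN
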