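import Mathlib
import Cfsg.Agent.H223.PMinGood
import Cfsg.Agent.Classification.SimpleIndex
import Cfsg.Agent.Involutions.IndexFive
import Cfsg.Agent.SmallSimple.PSLTwoPart
import Cfsg.Agent.TwoFusion.SLTwoFacts

set_option autoImplicit false
set_option linter.style.haveILetI false
set_option linter.unusedSectionVars false

/-!
# p-minimal groups: `L₂(8) = ²G₂(3)'` and `A₆ = Sp₄(2)'`
-/

namespace Cfsg.Agent.H223.PMinEight

open Subgroup Cfsg Cfsg.Agent.H223.PMinSys Cfsg.Agent.H223.PMinGood

universe u v w

section psys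

variable {p : ℕ} {Y : Type v} [Group Y] {ι : Type w}

/-- the parabolic subgroup of a set of nodes -/
def par (U : Subgroup Y) (P : ι → Subgroup Y) (J : Set ι) : Subgroup Y :=
  normalizer (U : Set Y) ⊔ ⨆ (i : ι) (_ : i ∈ J), P i

theorem par_mono (U : Subgroup Y) (P : ι → Subgroup Y) {J J' : Set ι} (h : J ⊆ J') : par U P J ≤ par U P J' := by
  unfold par
  refine sup_le_sup_left ?_ _
  refine iSup₂_le ?_
  intro i hi
  exact le_iSup₂_of_le (f := fun (i : ι) (_ : i ∈ J') => P i) i (h hi) le_rfl

theorem le_par (U : Subgroup Y) (P : ι → Subgroup Y) {J : Set ι} {i : ι} (h : i ∈ J) : P i ≤ par U P J := by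
  unfold par
  refine le_sup_of_le_right ?_
  exact le_iSup₂_of_le (f := fun (i : ι) (_ : i ∈ J) => P i) i h le_rfl

/-- a parabolic system from its minimal parabolics -/
def psysOf (U : Subgroup Y) (hU : IsPGroup p U) (hi : ¬ p ∣ U.index) (P : ι → Subgroup Y)
    (ha : ∀ Q : Subgroup Y, normalizer (U : Set Y) ≤ Q → Q ≤ par U P {i | P i ≤ Q})
    (hb : ∀ i, ¬ P i ≤ par U P {j | j ≠ i}) : PSys p Y ι where
  U := U
  isP := hU
  idx := hi
  e :=
    have key : ∀ (J : Set ι) (i : ι), P i ≤ par U P J → i ∈ J := by
      intro J i h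
      by_contra hJ
      exact hb i (h.trans (par_mono U P fun j hj hji => hJ (hji ▸ hj)))
    { toFun := fun J => ⟨par U P J, le_sup_left⟩
      invFun := fun Q => {i | P i ≤ Q.1}
      left_inv := fun J => Set.ext fun i => ⟨fun h => key J i h, fun h => le_par U P h⟩
      right_inv := fun Q => Subtype.ext (le_antisymm (sup_le Q.2 (iSup₂_le fun i hi => hi)) (ha Q.1 Q.2))
      map_rel_iff' := @fun J J' => ⟨fun h i hi => key J' i (le_trans (le_par U P hi) h), fun h => par_mono U P h⟩ }

/-- `N(U)` maximal -/
theorem exists_psys_unit {U : Subgroup Y} (hU : IsPGroup p U) (hi : ¬ p ∣ U.index)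
    (hc : IsCoatom (normalizer (U : Set Y))) : Nonempty (PSys p Y Unit) := by
  refine ⟨psysOf U hU hi (fun _ => ⊤) ?_ ?_⟩
  · intro Q hQ
    rcases eq_or_lt_of_le hQ with h | h
    · exact h.ge.trans le_sup_left
    · have h1 := hc.2 Q h
      rw [h1]
      exact le_par U (fun _ : Unit => ⊤) (i := ()) (le_refl (⊤ : Subgroup Y))
  · intro i h
    apply hc.1
    rw [eq_top_iff]
    refine h.trans (sup_le le_rfl (iSup₂_le fun j hj => ?_))
    exact absurd rfl hj

end psys

section eight

variable {G : Type v} [Group G] [Finite G] [IsSimpleGroup G] (hG : Nat.card G = 504)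

include hG

theorem index_ne_seven (H : Subgroup G) : H.index ≠ 7 := by
  intro hH
  have hne : H ≠ ⊤ := by rintro rfl; rw [Subgroup.index_top] at hH; omega
  have hnc : ¬ IsMulCommutative G :=
    Cfsg.Agent.Classification.SimpleIndex.not_comm_of_not_prime (by rw [hG]; norm_num)
  obtain ⟨f, hf⟩ := Cfsg.Agent.S0991.result hnc H hne
  have : Nontrivial (Fin H.index) := Fin.nontrivial_iff_two_le.2 (by omega)
  have h2 : 2 * Nat.card (alternatingGroup (Fin H.index)) = (H.index).factorial := by
    rw [Nat.card_eq_fintype_card, two_mul_card_alternatingGroup, Fintype.card_perm, Fintype.card_fin]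
  rw [hH] at h2
  have h3 : Nat.card (alternatingGroup (Fin H.index)) = 2520 := by
    have : Nat.factorial 7 = 5040 := rfl
    rw [← hH] at *
    omega
  have hs : IsSimpleGroup (alternatingGroup (Fin H.index)) := alternatingGroup.isSimpleGroup (by
    rw [Nat.card_eq_fintype_card, Fintype.card_fin]; omega)
  have h4 : Nat.card f.range = 504 := by
    rw [← hG]
    exact (Nat.card_congr (MonoidHom.ofInjective hf).toEquiv).symm
  have h5 := Subgroup.card_mul_index f.range
  rw [h4, h3] at h5
  have h6 : f.range.index = 5 := by omega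
  have h7 := Cfsg.Agent.Involutions.IndexFive.card_dvd_factorial_index f.range (by
    rintro h8
    rw [h8, Subgroup.index_top] at h6
    omega)
  rw [h6, h3] at h7
  exact absurd h7 (by decide)

theorem index_not_mem {H : Subgroup G} (hne : H ≠ ⊤) : 8 ≤ H.index := by
  have h1 := Cfsg.Agent.Involutions.IndexFive.card_dvd_factorial_index H hne
  rw [hG] at h1
  have h2 := index_ne_seven hG H
  have h0 : H.index ≠ 0 := Subgroup.index_ne_zero_of_finite
  by_contra hlt
  have h3 : H.index ∈ Finset.Icc 1 6 := by rw [Finset.mem_Icc]; omega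
  generalize H.index = n at *
  revert h1
  fin_cases h3 <;> decide

theorem isCoatom_normalizer [Fact (Nat.Prime 3)] (S : Sylow 3 G) : IsCoatom (normalizer (S : Set G)) := by
  have hnc : ¬ IsMulCommutative G :=
    Cfsg.Agent.Classification.SimpleIndex.not_comm_of_not_prime (by rw [hG]; norm_num)
  have hS : Nat.card (S : Subgroup G) = 9 := by
    have h1 : Nat.card S = 3 ^ (Nat.card G).factorization 3 := Sylow.card_eq_multiplicity _
    rw [hG, show (504 : ℕ) = 3 ^ 2 * 56 by norm_num, Nat.factorization_mul (by norm_num) (by norm_num),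
      Finsupp.add_apply, Nat.prime_three.factorization_pow, Finsupp.single_eq_same,
      Nat.factorization_eq_zero_of_not_dvd (by norm_num)] at h1
    exact h1
  have hNne : normalizer (S : Set G) ≠ ⊤ := by
    intro h
    have hn : (S : Subgroup G).Normal := Subgroup.normalizer_eq_top_iff.1 h
    rcases hn.eq_bot_or_eq_top with h | h
    · rw [h, Subgroup.card_bot] at hS
      omega
    · rw [h, Subgroup.card_top, hG] at hS
      omega
  have h1 := S.card_eq_index_normalizer
  have h2 := card_sylow_modEq_one 3 G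
  rw [h1] at h2
  have h3 : (normalizer (S : Set G)).index ∣ 56 := by
    have h4 : (normalizer (S : Set G)).index ∣ (S : Subgroup G).index := Subgroup.index_dvd_of_le le_normalizer
    have h5 := Subgroup.card_mul_index (S : Subgroup G)
    rw [hS, hG] at h5
    have h6 : (S : Subgroup G).index = 56 := by omega
    rwa [h6] at h4
  have h4 := index_not_mem hG hNne
  have h5 : (normalizer (S : Set G)).index = 28 := by
    generalize (normalizer (S : Set G)).index = n at *
    have h6 : n ≤ 56 := Nat.le_of_dvd (by norm_num) h3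
    unfold Nat.ModEq at h2
    interval_cases n <;> omega
  refine ⟨hNne, fun Q hQ => ?_⟩
  by_contra hne
  have h6 := Subgroup.relIndex_mul_index hQ.le
  rw [h5] at h6
  have h7 := index_not_mem hG hne
  have h8 : Q.index = 14 ∨ Q.index = 28 := by
    have h9 : Q.index ∣ 28 := Dvd.intro_left _ h6
    generalize Q.index = n at *
    have h10 : n ≤ 28 := Nat.le_of_dvd (by norm_num) h9
    interval_cases n <;> omega
  rcases h8 with h8 | h8
  · rw [h8] at h6
    have h9 : (normalizer (S : Set G)).relIndex Q = 2 := by omega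
    have h10 : ((normalizer (S : Set G)).subgroupOf Q).Normal := Subgroup.normal_of_index_eq_two h9
    have h11 : Q ≤ normalizer (normalizer (S : Set G) : Set G) :=
      (Subgroup.normal_subgroupOf_iff_le_normalizer hQ.le).1 h10
    have h12 := Sylow.normalizer_normalizer S
    rw [h12] at h11
    exact hQ.not_ge h11
  · rw [h8] at h6
    have h9 : (normalizer (S : Set G)).relIndex Q = 1 := by omega
    exact hQ.not_ge (Subgroup.relIndex_eq_one.1 h9)

end eight

theorem pgood_L28 {F : Type} [Field F] [Fintype F] (hF : Fintype.card F = 8) {G : Type v} [Group G]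
    (e : G ≃* Matrix.ProjectiveSpecialLinearGroup (Fin 2) F) : PGood.{u} 3 G := by
  have hp3 : Fact (Nat.Prime 3) := ⟨Nat.prime_three⟩
  have hs' : IsSimpleGroup (Matrix.ProjectiveSpecialLinearGroup (Fin 2) F) :=
    Cfsg.Agent.TwoFusion.SLTwoFacts.isSimpleGroup_psl (by omega)
  have hs : IsSimpleGroup G := e.isSimpleGroup
  have hfin : Finite G := Finite.of_equiv _ e.symm.toEquiv
  have hG : Nat.card G = 504 := by
    rw [Nat.card_congr e.toEquiv, Cfsg.Agent.SmallSimple.PSLTwoPart.card_psl_two_even (by rw [hF]; decide), hF]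
    norm_num
  obtain ⟨S⟩ : Nonempty (Sylow 3 G) := inferInstance
  obtain ⟨Z⟩ := exists_psys_unit S.isPGroup' S.not_dvd_index (isCoatom_normalizer hG S)
  exact pgood_of_rankOne Z (Or.inr (Or.inr (Or.inr ⟨rfl, Or.inr ⟨F, _, _, hF, ⟨e⟩⟩⟩)))

end Cfsg.Agent.H223.PMinEight
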