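import Mathlib
import Cfsg.Agent.H223.PMinEight

set_option autoImplicit false
set_option linter.style.haveILetI false
set_option linter.unusedSectionVars false
set_option maxRecDepth 100000

/-!
# p-minimal groups: `A₆ = Sp₄(2)'`
-/

namespace Cfsg.Agent.H223.PMinSix

open Subgroup Cfsg Cfsg.Agent.H223.PMinSys Cfsg.Agent.H223.PMinGood Cfsg.Agent.H223.PMinEight Equiv

universe u v w

abbrev S6 : Type := Perm (Fin 6)

/-- `(01)` and `(01)(23)(45)` -/
def t : Bool → S6
  | false => swap 0 1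
  | true => swap 0 1 * swap 2 3 * swap 4 5

def mm (b : Bool) (g : S6) : Bool := decide (g * t b = t b * g)

/-- in one, not in both -/
def TT (g : S6) : Bool := (mm false g) != (mm true g)

def u1 : S6 := swap 2 3 * swap 4 5
def u2 : S6 := swap 2 4 * swap 3 5
def u3 : S6 := swap 2 5 * swap 3 4
def u4 : S6 := swap 0 1 * swap 4 5

theorem mem_u : ((mm false u1 = true ∧ mm true u1 = true ∧ Perm.sign u1 = 1) ∧
    (mm false u2 = true ∧ mm true u2 = true ∧ Perm.sign u2 = 1)) ∧
    ((mm false u3 = true ∧ mm true u3 = true ∧ Perm.sign u3 = 1) ∧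
    (mm false u4 = true ∧ mm true u4 = true ∧ Perm.sign u4 = 1)) := by decide +kernel

theorem check0 : ∀ g : S6, (g 0 = 0 ∨ g 0 = 1) → Perm.sign g = 1 → mm false g = true ∨ mm true g = true ∨
    TT (g * u1 * g⁻¹ * u2 * g) = true ∨ TT (g * u1 * g⁻¹ * u3 * g) = true ∨ TT (g * u1 * g⁻¹ * u4 * g) = true ∨
    TT (g⁻¹ * u4 * g) = true := by
  decide +kernel

theorem check1 : ∀ g : S6, (g 0 = 2 ∨ g 0 = 3) → Perm.sign g = 1 → mm false g = true ∨ mm true g = true ∨
    TT (g * u1 * g⁻¹ * u2 * g) = true ∨ TT (g * u1 * g⁻¹ * u3 * g) = true ∨ TT (g * u1 * g⁻¹ * u4 * g) = true ∨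
    TT (g⁻¹ * u4 * g) = true := by
  decide +kernel

theorem check2 : ∀ g : S6, (g 0 = 4 ∨ g 0 = 5) → Perm.sign g = 1 → mm false g = true ∨ mm true g = true ∨
    TT (g * u1 * g⁻¹ * u2 * g) = true ∨ TT (g * u1 * g⁻¹ * u3 * g) = true ∨ TT (g * u1 * g⁻¹ * u4 * g) = true ∨
    TT (g⁻¹ * u4 * g) = true := by
  decide +kernel

theorem check : ∀ g : S6, Perm.sign g = 1 → mm false g = true ∨ mm true g = true ∨ TT (g * u1 * g⁻¹ * u2 * g) = true ∨
    TT (g * u1 * g⁻¹ * u3 * g) = true ∨ TT (g * u1 * g⁻¹ * u4 * g) = true ∨ TT (g⁻¹ * u4 * g) = true := by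
  intro g hg
  have h : (g 0 = 0 ∨ g 0 = 1) ∨ (g 0 = 2 ∨ g 0 = 3) ∨ (g 0 = 4 ∨ g 0 = 5) := by
    generalize g 0 = i
    revert i
    decide
  rcases h with h | h | h
  · exact check0 g h hg
  · exact check1 g h hg
  · exact check2 g h hg

/-- the two minimal parabolic subgroups -/
def P (b : Bool) : Subgroup (alternatingGroup (Fin 6)) :=
  (Subgroup.centralizer {t b}).subgroupOf (alternatingGroup (Fin 6))

theorem mem_P {b : Bool} {g : alternatingGroup (Fin 6)} : g ∈ P b ↔ mm b g = true := by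
  unfold P mm
  rw [Subgroup.mem_subgroupOf, Subgroup.mem_centralizer_singleton_iff, decide_eq_true_iff]

def U : Subgroup (alternatingGroup (Fin 6)) := P false ⊓ P true

theorem cards : (Fintype.card {g : S6 // mm false g = true ∧ Perm.sign g = 1} = 24 ∧
    Fintype.card {g : S6 // mm true g = true ∧ Perm.sign g = 1} = 24) ∧
    Fintype.card {g : S6 // mm false g = true ∧ mm true g = true ∧ Perm.sign g = 1} = 8 := by
  decide +kernel

def equivOf (Q : Subgroup (alternatingGroup (Fin 6))) (f : S6 → Prop) (h : ∀ g : alternatingGroup (Fin 6), g ∈ Q ↔ f g) :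
    Q ≃ {g : S6 // f g ∧ Perm.sign g = 1} where
  toFun x := ⟨x.1.1, (h x.1).1 x.2, Perm.mem_alternatingGroup.1 x.1.2⟩
  invFun y := ⟨⟨y.1, Perm.mem_alternatingGroup.2 y.2.2⟩, (h _).2 y.2.1⟩
  left_inv _ := rfl
  right_inv _ := rfl

theorem card_P (b : Bool) : Nat.card (P b) = 24 := by
  rw [Nat.card_congr (equivOf (P b) (fun g => mm b g = true) fun g => mem_P), Nat.card_eq_fintype_card]
  cases b
  · exact cards.1.1
  · exact cards.1.2

theorem U_le (b : Bool) : U ≤ P b := by
  cases b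
  · exact inf_le_left
  · exact inf_le_right

theorem mem_U {g : alternatingGroup (Fin 6)} : g ∈ U ↔ mm false g = true ∧ mm true g = true := by
  unfold U
  rw [Subgroup.mem_inf, mem_P, mem_P]

theorem card_U : Nat.card U = 8 := by
  rw [Nat.card_congr (equivOf U (fun g => mm false g = true ∧ mm true g = true) fun g => mem_U),
    Nat.card_eq_fintype_card, ← cards.2]
  exact Fintype.card_congr (Equiv.subtypeEquivRight fun g => and_assoc)

theorem card_A6 : Nat.card (alternatingGroup (Fin 6)) = 360 := by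
  rw [nat_card_alternatingGroup, Nat.card_eq_fintype_card, Fintype.card_fin]
  decide

theorem P_le_of_mem {Q : Subgroup (alternatingGroup (Fin 6))} (hQ : U ≤ Q) {b : Bool} {g : alternatingGroup (Fin 6)}
    (hg : g ∈ Q) (hgP : g ∈ P b) (hgU : g ∉ U) : P b ≤ Q := by
  have h1 : U ≤ Q ⊓ P b := le_inf hQ (U_le b)
  have h2 : Nat.card U ∣ Nat.card ↥(Q ⊓ P b) := Subgroup.card_dvd_of_le h1
  have h3 : Nat.card ↥(Q ⊓ P b) ∣ Nat.card (P b) := Subgroup.card_dvd_of_le inf_le_right
  rw [card_U] at h2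
  rw [card_P] at h3
  have h4 : Nat.card ↥(Q ⊓ P b) ≠ 8 := by
    intro h
    apply hgU
    have h5 : U = Q ⊓ P b := Subgroup.eq_of_le_of_card_ge h1 (by rw [h, card_U])
    rw [h5]
    exact ⟨hg, hgP⟩
  have h5 : Nat.card ↥(Q ⊓ P b) = 24 := by
    generalize Nat.card ↥(Q ⊓ P b) = n at *
    have h6 : n ≤ 24 := Nat.le_of_dvd (by norm_num) h3
    interval_cases n <;> omega
  have h6 : Q ⊓ P b = P b := Subgroup.eq_of_le_of_card_ge inf_le_right (by rw [h5, card_P])
  rw [← h6]
  exact inf_le_left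

theorem eq_of_P_le {Q : Subgroup (alternatingGroup (Fin 6))} {b : Bool} (hQ : P b ≤ Q) : Q = P b ∨ Q = ⊤ := by
  by_cases hne : Q = ⊤
  · exact Or.inr hne
  left
  have hs : IsSimpleGroup (alternatingGroup (Fin 6)) := alternatingGroup.isSimpleGroup (by
    rw [Nat.card_eq_fintype_card, Fintype.card_fin]; omega)
  have h1 := Cfsg.Agent.Involutions.IndexFive.card_dvd_factorial_index Q hne
  rw [card_A6] at h1
  have h2 : Nat.card (P b) ∣ Nat.card Q := Subgroup.card_dvd_of_le hQ
  have h3 := Subgroup.card_mul_index Q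
  rw [card_A6] at h3
  rw [card_P] at h2
  obtain ⟨k, hk⟩ := h2
  rw [hk] at h3
  have h4 : k * Q.index = 15 := by
    have : 24 * (k * Q.index) = 24 * 15 := by rw [← mul_assoc]; exact h3
    exact Nat.eq_of_mul_eq_mul_left (by norm_num) this
  have h5 : k = 1 := by
    have h6 : Q.index ∣ 15 := Dvd.intro_left _ h4
    have h7 : Q.index ≤ 15 := Nat.le_of_dvd (by norm_num) h6
    have h8 : Q.index ≠ 1 := fun h => hne (Subgroup.index_eq_one.1 h)
    generalize Q.index = n at *
    interval_cases n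
    all_goals first
      | omega
      | (exfalso; revert h1; decide)
  subst h5
  refine (Subgroup.eq_of_le_of_card_ge hQ ?_).symm
  rw [hk, card_P]

theorem exists_P_le {Q : Subgroup (alternatingGroup (Fin 6))} (hQ : U ≤ Q) (hne : Q ≠ U) : ∃ b, P b ≤ Q := by
  obtain ⟨g, hgQ, hgU⟩ : ∃ g ∈ Q, g ∉ U := by
    by_contra h
    push Not at h
    exact hne (le_antisymm h hQ)
  have key : ∀ h : alternatingGroup (Fin 6), h ∈ Q → TT h = true → ∃ b, P b ≤ Q := by
    intro h hh hT
    by_cases h1 : mm false h = true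
    · refine ⟨false, P_le_of_mem hQ hh (mem_P.2 h1) fun h2 => ?_⟩
      have h3 := (mem_U.1 h2).2
      unfold TT at hT
      rw [h1, h3] at hT
      exact absurd hT (by decide)
    · have h2 : mm true h = true := by
        unfold TT at hT
        rw [Bool.eq_false_iff.2 h1] at hT
        revert hT
        cases mm true h <;> decide
      refine ⟨true, P_le_of_mem hQ hh (mem_P.2 h2) fun h3 => h1 (mem_U.1 h3).1⟩
  have hu : ∀ u : S6, mm false u = true ∧ mm true u = true ∧ Perm.sign u = 1 →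
      ∃ v : alternatingGroup (Fin 6), (v : S6) = u ∧ v ∈ Q := fun u hu =>
    ⟨⟨u, Perm.mem_alternatingGroup.2 hu.2.2⟩, rfl, hQ (mem_U.2 ⟨hu.1, hu.2.1⟩)⟩
  obtain ⟨v1, e1, h1⟩ := hu u1 mem_u.1.1
  obtain ⟨v2, e2, h2⟩ := hu u2 mem_u.1.2
  obtain ⟨v3, e3, h3⟩ := hu u3 mem_u.2.1
  obtain ⟨v4, e4, h4⟩ := hu u4 mem_u.2.2
  rcases check g (Perm.mem_alternatingGroup.1 g.2) with h | h | h | h | h | h
  · exact ⟨false, P_le_of_mem hQ hgQ (mem_P.2 h) hgU⟩
  · exact ⟨true, P_le_of_mem hQ hgQ (mem_P.2 h) hgU⟩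
  · rw [← e1, ← e2] at h
    exact key (g * v1 * g⁻¹ * v2 * g) (mul_mem (mul_mem (mul_mem (mul_mem hgQ h1) (inv_mem hgQ)) h2) hgQ) h
  · rw [← e1, ← e3] at h
    exact key (g * v1 * g⁻¹ * v3 * g) (mul_mem (mul_mem (mul_mem (mul_mem hgQ h1) (inv_mem hgQ)) h3) hgQ) h
  · rw [← e1, ← e4] at h
    exact key (g * v1 * g⁻¹ * v4 * g) (mul_mem (mul_mem (mul_mem (mul_mem hgQ h1) (inv_mem hgQ)) h4) hgQ) h
  · rw [← e4] at h
    exact key (g⁻¹ * v4 * g) (mul_mem (mul_mem (inv_mem hgQ) h4) hgQ) h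

/-- elements of order three -/
def g1 : S6 := swap 2 3 * swap 3 4
def g2 : S6 := swap 0 2 * swap 2 4 * (swap 1 3 * swap 3 5)

theorem facts : (mm false g1 = true ∧ mm true g1 = false ∧ Perm.sign g1 = 1 ∧ mm true (g1 * u4 * g1⁻¹) = false) ∧
    (mm true g2 = true ∧ mm false g2 = false ∧ Perm.sign g2 = 1 ∧ mm false (g2 * u2 * g2⁻¹) = false) := by
  decide +kernel

theorem normalizer_U : normalizer (U : Set (alternatingGroup (Fin 6))) = U := by
  by_contra hne
  obtain ⟨b, hb⟩ := exists_P_le le_normalizer hne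
  cases b
  · obtain ⟨h1, h2, h3, h4⟩ := facts.1
    have h5 : (⟨g1, Perm.mem_alternatingGroup.2 h3⟩ : alternatingGroup (Fin 6)) ∈ P false := mem_P.2 h1
    have h6 : (⟨u4, Perm.mem_alternatingGroup.2 mem_u.2.2.2.2⟩ : alternatingGroup (Fin 6)) ∈ U :=
      mem_U.2 ⟨mem_u.2.2.1, mem_u.2.2.2.1⟩
    have h7 := (mem_U.1 ((Subgroup.mem_normalizer_iff.1 (hb h5) _).1 h6)).2
    have h8 : mm true (g1 * u4 * g1⁻¹) = true := h7
    rw [h4] at h8
    exact absurd h8 (by decide)
  · obtain ⟨h1, h2, h3, h4⟩ := facts.2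
    have h5 : (⟨g2, Perm.mem_alternatingGroup.2 h3⟩ : alternatingGroup (Fin 6)) ∈ P true := mem_P.2 h1
    have h6 : (⟨u2, Perm.mem_alternatingGroup.2 mem_u.1.2.2.2⟩ : alternatingGroup (Fin 6)) ∈ U :=
      mem_U.2 ⟨mem_u.1.2.1, mem_u.1.2.2.1⟩
    have h7 := (mem_U.1 ((Subgroup.mem_normalizer_iff.1 (hb h5) _).1 h6)).1
    have h8 : mm false (g2 * u2 * g2⁻¹) = true := h7
    rw [h4] at h8
    exact absurd h8 (by decide)

theorem not_le (b : Bool) : ¬ P b ≤ P (!b) := by
  intro h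
  cases b
  · obtain ⟨h1, h2, h3, h4⟩ := facts.1
    have h5 : (⟨g1, Perm.mem_alternatingGroup.2 h3⟩ : alternatingGroup (Fin 6)) ∈ P false := mem_P.2 h1
    have h6 := mem_P.1 (h h5)
    change mm true g1 = true at h6
    rw [h2] at h6
    exact absurd h6 (by decide)
  · obtain ⟨h1, h2, h3, h4⟩ := facts.2
    have h5 : (⟨g2, Perm.mem_alternatingGroup.2 h3⟩ : alternatingGroup (Fin 6)) ∈ P true := mem_P.2 h1
    have h6 := mem_P.1 (h h5)
    change mm false g2 = true at h6
    rw [h2] at h6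
    exact absurd h6 (by decide)

theorem exists_psys : Nonempty (PSys 2 (alternatingGroup (Fin 6)) Bool) := by
  refine ⟨psysOf U (IsPGroup.of_card (n := 3) (by rw [card_U]; norm_num)) ?_ P ?_ ?_⟩
  · have h1 := Subgroup.card_mul_index U
    rw [card_U, card_A6] at h1
    omega
  · intro Q hQ
    rw [normalizer_U] at hQ
    by_cases hne : Q = U
    · exact (hne.le.trans normalizer_U.ge).trans le_sup_left
    · obtain ⟨b, hb⟩ := exists_P_le hQ hne
      rcases eq_of_P_le hb with h | h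
      · exact h.le.trans (le_par U P hb)
      · have h1 : ∀ b, P b ≤ par U P {i | P i ≤ Q} := fun b => le_par U P (by
          show P b ≤ Q
          rw [h]; exact le_top)
        rcases eq_of_P_le (h1 false) with h2 | h2
        · exfalso
          apply not_le true
          have := h1 true
          rw [h2] at this
          exact this
        · rw [h2]
          exact le_top
  · intro i h
    apply not_le i
    refine h.trans (sup_le ?_ (iSup₂_le fun j hj => ?_))
    · rw [normalizer_U]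
      exact U_le _
    · have : j = !i := by
        revert hj
        cases i <;> cases j <;> simp
      rw [this]

theorem pgood_A6 {G : Type v} [Group G] (e : G ≃* alternatingGroup (Fin 6)) : PGood.{u} 2 G := by
  have hp2 : Fact (Nat.Prime 2) := ⟨Nat.prime_two⟩
  obtain ⟨Z⟩ := exists_psys
  have h : PGood.{u} 2 (alternatingGroup (Fin 6)) :=
    pgood_of_rankTwo Z (i := false) (j := true) (by decide) (by intro k; cases k <;> simp)
      (fun _ => Or.inr (Or.inr ⟨MulEquiv.refl _⟩))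
  exact h.congr e.symm

end Cfsg.Agent.H223.PMinSix
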