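import Mathlib
import Cfsg.Agent.H223.PMinBN
import Cfsg.Agent.H566.RankOneSR
import Cfsg.Agent.Schreier.TwFFour

set_option autoImplicit false
set_option linter.style.haveILetI false
set_option linter.unusedSectionVars false

/-!
# p-minimal groups: Suzuki groups, Ree groups
-/

namespace Cfsg.Agent.H223.PMinTw

open Subgroup Cfsg Cfsg.Agent.H223.PMinSys Cfsg.Agent.H223.PMinGood Cfsg.Agent.H223.PMinBN
open Cfsg.Agent.Schreier.BNSch Cfsg.Agent.FixBN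

universe u v w

theorem pgood_Sz {G : Type v} [Group G] (h : Lie.IsoSuzuki G) : PGood.{u} 2 G := by
  have : Fact (Nat.Prime 2) := ⟨Nat.prime_two⟩
  obtain ⟨K, i1, i2, m, hm, hK, ⟨e⟩⟩ := h
  have H := LieRecognition.SzMatrix.good hK
  have hs := S1162.result hm hK
  have hsp : HasSplit 2 ↥(Cfsg.Lie.Sz K (2 ^ (m + 1))) := ⟨H566.szBN H, H.unip, ⟨H.w, rfl⟩, H566.sz_split hK H hs⟩
  exact (pgood_of_hasSplit hsp (Or.inr (Or.inr (Or.inl ⟨rfl, K, i1, i2, m, hm, hK, ⟨MulEquiv.refl _⟩⟩)))).congr e.symm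

theorem pgood_Ree {G : Type v} [Group G] (h : Lie.IsoRee G) : PGood.{u} 3 G := by
  have : Fact (Nat.Prime 3) := ⟨Nat.prime_three⟩
  obtain ⟨K, i1, i2, m, hm, hK, ⟨e⟩⟩ := h
  exact (pgood_of_hasSplit (ReeSplit.hasSplit_Ree hK)
    (Or.inr (Or.inr (Or.inr ⟨rfl, Or.inl ⟨K, i1, i2, m, hm, hK, ⟨MulEquiv.refl _⟩⟩⟩)))).congr e.symm

section F4

open Cfsg.Lie
open Cfsg.Agent.ChevalleyStructure.TwF4.Rel
open Cfsg.Agent.ChevalleyStructure.TwF4.Groups Cfsg.Agent.ChevalleyStructure.TwF4.RankOne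
open Cfsg.Agent.ChevalleyStructure.TwF4.Twisted Cfsg.Agent.ChevalleyStructure.TwF4.TwistedFix
open Cfsg.Agent.ChevalleyStructure.TwF4.BN
open Cfsg.Agent.ChevalleyStructure.TwF4.Torus (T chi T_conj_X T_inr)
open Cfsg.Agent.ChevalleyStructure.TwF4.TwGen (tc chi_tc_24 chi_tc_25 chi_tc_33 chi_tc_27 chi28 chi30 pow_all)
open Cfsg.Agent.ChevalleyStructure.TwF4.TorusFix (mem_iff pow_unit T_rt rt)
open Cfsg.Agent.ChevalleyStructure.TwF4.Fix (Fix)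
open Cfsg.Agent.Schreier.Basic Cfsg.Agent.Schreier.Tools Cfsg.Agent.Schreier.BNSch Cfsg.Agent.Schreier.BNUse
open Cfsg.Agent.Schreier.TwFFour

variable {K : Type v} [Field K] [Fintype K] {m : ℕ}

/-- the split (B, N)-pair of `²F₄(q)`, `q ≥ 2` -/
theorem exists_split (hK : Fintype.card K = 2 ^ (2 * m + 1)) [CharP K 2] {φ : K →+* K} (hφ : Rln φ (2 ^ m)) :
    ∃ P : Cfsg.BNPair ↥(twistedF4 K (2 ^ m)), P.B = B0 K (2 ^ m) ∧ P.S = Set.range (twistedData hφ).nG ∧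
      Split P 2 (U0 K (2 ^ m)) := by
  have : Fact (Nat.Prime 2) := ⟨Nat.prime_two⟩
  obtain ⟨P, hPB, hPN, hPS⟩ := exists_bnPair hφ
  have hB : P.B = B0 K (2 ^ m) := hPB
  have hdec := dec hK hφ
  refine ⟨P, hB, hPS, ?_, ?_, isPGroup_U0 hK, ?_, ⟨2 ^ (2 * m + 1) - 1, ?_, ?_⟩, ?_, ?_⟩
  · rw [hB]; exact U0_le_B0
  · intro b hb u hu
    rw [hB] at hb
    exact conj_U0 hb hu
  · intro b hb
    rw [hB] at hb
    obtain ⟨s, t, u, hu, hbu⟩ := hdec.1 b hb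
    refine ⟨u, hu, ?_⟩
    rw [hPN, Subgroup.mem_subgroupOf, Subgroup.coe_mul, Subgroup.coe_inv, hbu, inv_mul_cancel_left]
    exact Cfsg.Agent.ChevalleyStructure.TwF4.NStruct.T_mem_N _
  · have h1 : 2 ∣ 2 ^ (2 * m + 1) := dvd_pow_self 2 (by omega)
    have h2 : 0 < 2 ^ (2 * m + 1) := by positivity
    omega
  · intro h hh hN
    rw [hPB, Subgroup.mem_subgroupOf] at hh
    rw [hPN, Subgroup.mem_subgroupOf] at hN
    have h1 := borel_inf_N ⟨hh, hN⟩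
    obtain ⟨s, t, hst⟩ := (mem_iff hK (h : GL chevF4.Idx K)).1 ⟨h1, h.2⟩
    apply Subtype.ext
    rw [Subgroup.coe_pow, hst, ← map_pow]
    have h2 : tc (2 ^ m) s t ^ (2 ^ (2 * m + 1) - 1) = 1 := by
      have h3 : ∀ x : Kˣ, x ^ (2 ^ (2 * m + 1) - 1) = 1 := by
        intro x
        have h4 := pow_card_eq_one' (x := x)
        rwa [Nat.card_units, Nat.card_eq_fintype_card, hK] at h4
      funext l
      rw [Pi.pow_apply, h3]; rfl
    rw [h2, map_one]; rfl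
  · intro s hs
    rw [hPS] at hs
    obtain ⟨i, rfl⟩ := hs
    have hi : i = 0 ∨ i = 1 := by
      revert i; decide
    rcases hi with rfl | rfl
    · exact ⟨V1 K (2 ^ m), node1 hφ hB⟩
    · exact ⟨V8 K (2 ^ m), node2 hφ hB⟩
  · rw [hPB, ← Subgroup.inf_subgroupOf_right]
    exact Cfsg.Agent.S1113.result hK

theorem sq_mem_V1 [CharP K 2] {φ : K →+* K} {e : ℕ} (hφ : Rln φ e) {u : ↥(twistedF4 K e)} (hu : u ∈ U0 K e) :
    u * u ∈ V1 K e := by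
  obtain ⟨v, hv, t, hvt'⟩ := decomp_a hφ hu u.2
  have hvt : (u : GL chevF4.Idx K) = v * xa e t := hvt'
  show (u : GL chevF4.Idx K) * u ∈ GA K (geB 2)
  have h1 : xa e t * xa e t = 1 := by
    rw [← xa_add hφ, CharTwo.add_self_eq_zero]
    have := xa_add hφ (0 : K) 0
    rw [add_zero] at this
    exact (mul_eq_left.1 this.symm)
  have h2 : (u : GL chevF4.Idx K) * u = v * (xa e t * v * (xa e t)⁻¹) * (xa e t * xa e t) := by
    rw [hvt]; group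
  rw [h2, h1, mul_one]
  exact mul_mem hv (norm_ge2 (xa_U t) hv)

theorem pgood_2F4 (hK : Fintype.card K = 2 ^ (2 * m + 1)) : PGood.{u} 2 ↥(twistedF4 K (2 ^ m)) := by
  have : CharP K 2 := charP_two hK
  have : Fact (Nat.Prime 2) := ⟨Nat.prime_two⟩
  have : Finite ↥(twistedF4 K (2 ^ m)) := inferInstance
  obtain ⟨φ, hφ⟩ := exists_rln hK
  obtain ⟨P, hB, hPS, S⟩ := exists_split hK hφ
  refine pgood_of_nodes P S.normalizer_eq S.isP (fun g hg ⟨n, hn⟩ => S.mem_of_pow hg hn)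
    (s := (twistedData hφ).nG 0) (t := (twistedData hφ).nG 1) (by rw [hPS]; exact ⟨0, rfl⟩)
    (by rw [hPS]; exact ⟨1, rfl⟩) (node1 hφ hB) (node2 hφ hB) ?_
  intro α hα hV
  have hx : (⟨xb (2 ^ m) 1 0, xb_mem 1 0⟩ : ↥(twistedF4 K (2 ^ m))) ∈ U0 K (2 ^ m) := xb_U 1 0
  have h1 : (⟨xb (2 ^ m) 1 0, xb_mem 1 0⟩ : ↥(twistedF4 K (2 ^ m))) * ⟨xb (2 ^ m) 1 0, xb_mem 1 0⟩ ∈ V8 K (2 ^ m) := by
    rw [← hα] at hx
    obtain ⟨u, hu, hux⟩ := hx
    rw [← hV, ← hux]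
    exact ⟨u * u, sq_mem_V1 hφ hu, map_mul _ _ _⟩
  have h2 : xb (2 ^ m) (1 : K) 0 * xb (2 ^ m) 1 0 ∈ GA K (leB 7) := h1
  rw [xb_sq hφ, one_pow] at h2
  exact one_ne_zero (xb_le7 hφ.pos.ne' h2)

end F4

end Cfsg.Agent.H223.PMinTw
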