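import Mathlib
import Cfsg.Agent.H223.PMinGood
import Cfsg.Agent.H566.RgdExc
import Cfsg.Agent.Nodes.CardWitt
import Cfsg.Agent.Mrg.ParSys.Fam.D4

set_option autoImplicit false
set_option linter.style.haveILetI false
set_option linter.unusedSectionVars false

/-!
# p-minimal groups with a normal subgroup of Lie type: the families with a root group datum
-/

namespace Cfsg.Agent.H223.PMinFam

open Subgroup Cfsg Cfsg.Agent.H223.PMinSys Cfsg.Agent.H223.PMinGood
open CoxeterSystem Cfsg.Agent.ChevalleyStructure.CoxeterGeom Cfsg.Agent.Tits.Roots Cfsg.Agent.Tits.Core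
  Cfsg.Agent.Tits.RootComb Cfsg.Agent.Nodes.Comb Cfsg.Agent.Nodes.Reps Cfsg.Agent.Nodes.BNOf Cfsg.Agent.FixBN

universe u v

/-- a path with at least three nodes -/
theorem val_path {l : ℕ} (M : CoxeterMatrix (Fin l)) (hl : 3 ≤ l)
    (hM : ∀ i j : Fin l, i ≠ j → (M i j ≠ 2 ↔ (i : ℕ) + 1 = j ∨ (j : ℕ) + 1 = i)) :
    val M ⟨0, by omega⟩ ≠ val M ⟨1, by omega⟩ := by
  have h0 : val M ⟨0, by omega⟩ ≤ 2 := by
    have h1 : (Finset.univ.filter fun j => M ⟨0, by omega⟩ j ≠ 2) ⊆ {⟨0, by omega⟩, ⟨1, by omega⟩} := by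
      intro j hj
      rw [Finset.mem_filter] at hj
      rw [Finset.mem_insert, Finset.mem_singleton]
      by_cases h : (⟨0, by omega⟩ : Fin l) = j
      · exact Or.inl h.symm
      · have h2 := (hM _ _ h).1 hj.2
        right
        apply Fin.ext
        simp only at h2
        show (j : ℕ) = 1
        omega
    exact (Finset.card_le_card h1).trans Finset.card_le_two
  have h1 : 2 < val M ⟨1, by omega⟩ := by
    rw [val, Finset.two_lt_card]
    refine ⟨⟨0, by omega⟩, ?_, ⟨1, by omega⟩, ?_, ⟨2, by omega⟩, ?_, ?_, ?_, ?_⟩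
    · rw [Finset.mem_filter]
      exact ⟨Finset.mem_univ _, (hM _ _ (by simp [Fin.ext_iff])).2 (Or.inr rfl)⟩
    · rw [Finset.mem_filter]
      refine ⟨Finset.mem_univ _, ?_⟩
      rw [M.diagonal]
      norm_num
    · rw [Finset.mem_filter]
      exact ⟨Finset.mem_univ _, (hM _ _ (by simp [Fin.ext_iff])).2 (Or.inl rfl)⟩
    · simp [Fin.ext_iff]
    · simp [Fin.ext_iff]
    · simp [Fin.ext_iff]
  omega

theorem val_A {n : ℕ} (hn : 3 ≤ n) :
    val (LieRecognition.BNCox.cA n) ⟨0, by omega⟩ ≠ val (LieRecognition.BNCox.cA n) ⟨1, by omega⟩ := by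
  refine val_path _ hn fun i j hij => ?_
  have hij' : (i : ℕ) ≠ j := fun e => hij (Fin.ext e)
  change LieRecognition.CoxClass.mA (i : ℕ) (j : ℕ) ≠ 2 ↔ _
  unfold LieRecognition.CoxClass.mA
  split_ifs <;> omega

theorem val_B {n : ℕ} (hn : 3 ≤ n) :
    val (CoxeterMatrix.B n) ⟨0, by omega⟩ ≠ val (CoxeterMatrix.B n) ⟨1, by omega⟩ := by
  refine val_path _ hn fun i j hij => ?_
  have hij' : (i : ℕ) ≠ j := fun e => hij (Fin.ext e)
  have hi := i.2
  have hj := j.2
  simp only [CoxeterMatrix.B, Matrix.of_apply, hij, if_false]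
  split_ifs <;> omega

/-- type `D`: the branch node has three neighbours -/
theorem val_D (n : ℕ) : val (Nodes.TypeD.M (n + 2)) ⟨n + 1, by omega⟩ ≠ val (Nodes.TypeD.M (n + 2)) ⟨n + 2, by omega⟩ := by
  have hM : ∀ i j : Fin (n + 4), i ≠ j → ((Nodes.TypeD.M (n + 2)) i j ≠ 2 ↔
      Nodes.TypeD.Adj i j ∨ Nodes.TypeD.Adj j i) := by
    intro i j hij
    rw [Nodes.TypeD.M_apply, if_neg hij]
    split_ifs with h <;> simp [h]
  have hbr : 2 < val (Nodes.TypeD.M (n + 2)) ⟨n + 1, by omega⟩ := by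
    rw [val, Finset.two_lt_card]
    refine ⟨⟨n, by omega⟩, ?_, ⟨n + 2, by omega⟩, ?_, ⟨n + 3, by omega⟩, ?_, ?_, ?_, ?_⟩
    · rw [Finset.mem_filter]
      have hne : (⟨n + 1, by omega⟩ : Fin (n + 4)) ≠ ⟨n, by omega⟩ := fun e => by
        have := congrArg Fin.val e
        simp only at this
        omega
      exact ⟨Finset.mem_univ _, (hM _ _ hne).2 (Or.inr (Or.inl ⟨by simp only; omega, rfl⟩))⟩
    · rw [Finset.mem_filter]
      have hne : (⟨n + 1, by omega⟩ : Fin (n + 4)) ≠ ⟨n + 2, by omega⟩ := fun e => by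
        have := congrArg Fin.val e
        simp only at this
        omega
      exact ⟨Finset.mem_univ _, (hM _ _ hne).2 (Or.inl (Or.inl ⟨by simp only; omega, rfl⟩))⟩
    · rw [Finset.mem_filter]
      have hne : (⟨n + 1, by omega⟩ : Fin (n + 4)) ≠ ⟨n + 3, by omega⟩ := fun e => by
        have := congrArg Fin.val e
        simp only at this
        omega
      exact ⟨Finset.mem_univ _, (hM _ _ hne).2 (Or.inl (Or.inr ⟨rfl, rfl⟩))⟩
    · intro e
      have := congrArg Fin.val e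
      simp only at this
      omega
    · intro e
      have := congrArg Fin.val e
      simp only at this
      omega
    · intro e
      have := congrArg Fin.val e
      simp only at this
      omega
  have hle : val (Nodes.TypeD.M (n + 2)) ⟨n + 2, by omega⟩ ≤ 2 := by
    have h2 : (Finset.univ.filter fun j => (Nodes.TypeD.M (n + 2)) ⟨n + 2, by omega⟩ j ≠ 2) ⊆
        {⟨n + 2, by omega⟩, ⟨n + 1, by omega⟩} := by
      intro j hj
      rw [Finset.mem_filter] at hj
      rw [Finset.mem_insert, Finset.mem_singleton]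
      by_cases h : (⟨n + 2, by omega⟩ : Fin (n + 4)) = j
      · exact Or.inl h.symm
      · have h3 := (hM _ _ h).1 hj.2
        right
        apply Fin.ext
        unfold Nodes.TypeD.Adj at h3
        have hj2 := j.2
        have hne : (j : ℕ) ≠ n + 2 := fun e => h (Fin.ext e.symm)
        simp only at h3 ⊢
        omega
    exact (Finset.card_le_card h2).trans Finset.card_le_two
  -- the branch node has four entries
  have hbr' : val (Nodes.TypeD.M (n + 2)) ⟨n + 2, by omega⟩ < val (Nodes.TypeD.M (n + 2)) ⟨n + 1, by omega⟩ :=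
    lt_of_le_of_lt hle hbr
  exact hbr'.ne'

/-! ### Type `A` -/

section TypeA

open Nodes.RGDTypeA Cfsg.Agent.TitsThree.KSideA Matrix

theorem pgood_PSL {F : Type} [Field F] [Fintype F] (n : ℕ) (hn : 2 ≤ n) {p : ℕ} [Fact p.Prime] [hc : CharP F p]
    (h2 : n = 2 → 4 ≤ Fintype.card F) :
    PGood.{u} p (Matrix.ProjectiveSpecialLinearGroup (Fin n) F) := by
  obtain ⟨n, rfl⟩ : ∃ k, n = k + 1 := ⟨n - 1, by omega⟩
  have : Finite (LieRecognition.BNCox.cA n).Group :=
    Nodes.RootsA.finite_W (LieRecognition.BNCox.cA n).toCoxeterSystem (Nodes.RootsA.isCartan n)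
  have hfin : Finite (Matrix.ProjectiveSpecialLinearGroup (Fin (n + 1)) F) := by
    unfold Matrix.ProjectiveSpecialLinearGroup
    infer_instance
  have R := Nodes.RGDTypeA.rgd_psl (F := F) (p := p) (LieRecognition.BNCox.cA n).toCoxeterSystem (Nodes.RootsA.isCartan n)
  have hG := Nodes.RGDTypeA.G1_psl_eq_top (F := F) (LieRecognition.BNCox.cA n).toCoxeterSystem (Nodes.RootsA.isCartan n)
  rcases Nat.lt_or_ge n 3 with h3 | h3
  · obtain rfl | rfl : n = 1 ∨ n = 2 := by omega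
    · haveI : Nonempty (Fin 1) := ⟨0⟩
      exact rgd_rankOne R hG (Or.inl ⟨F, _, _, hc, h2 rfl, ⟨MulEquiv.refl _⟩⟩)
    · refine rgd_rankTwo R hG (i := 0) (j := 1) (by decide) (by decide) fun hp => ?_
      subst hp
      exact Or.inl ⟨F, inferInstance, inferInstance, hc, ⟨MulEquiv.refl _⟩⟩
  · exact rgd_val R hG (val_A h3)

end TypeA

/-! ### Type `B` -/

section Witt

open Cfsg.Agent.Nodes Cfsg.Agent.Nodes.WittAll Cfsg.Agent.Nodes.WittU Cfsg.Agent.Nodes.WittInst
  Cfsg.Agent.Nodes.WittRoot Cfsg.Agent.Nodes.WittRGD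
  Cfsg.Agent.TitsThree.Siegel Cfsg.Agent.TitsThree.SiegelGen
  Cfsg.Agent.TitsThree.WittFrame Cfsg.Agent.TitsThree.WBridge Cfsg.Agent.TitsThree.WittWeyl
  Cfsg.Agent.TitsThree.FrameCN

section Model

variable {F : Type*} [Field F] {V : Type*} [AddCommGroup V] [Module F V] {H : HForm F V} {n : ℕ}
  {Fr : Frame H (Fin n)}

theorem pgood_C {K : Type v} [Group K] [Finite K] (M : Model Fr K) {p : ℕ} (hA : AmbT Fr p M.I) [Finite V]
    [Fact p.Prime] [CharP F p] {p0 : Fr.Adm} (hp0 : p0.c ≠ 0) (hn : 3 ≤ n) : PGood.{u} p K := by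
  have hWf : Finite (CoxeterMatrix.B n).Group := TypeC.finite_W (CoxeterMatrix.B n).toCoxeterSystem
  exact rgd_val (rgdC_model M hA hp0 (CoxeterMatrix.B n).toCoxeterSystem) (WittModel.G1_eq_top _ (by omega) _) (val_B hn)

theorem pgood_C_one {K : Type v} [Group K] [Finite K] (M : Model Fr K) {p : ℕ} (hA : AmbT Fr p M.I) [Finite V]
    [Fact p.Prime] [CharP F p] {p0 : Fr.Adm} (hp0 : p0.c ≠ 0) (hn : n = 1) (hK : IsLieRankOneChar p K) :
    PGood.{u} p K := by
  subst hn
  have hWf : Finite (CoxeterMatrix.B 1).Group := TypeC.finite_W (CoxeterMatrix.B 1).toCoxeterSystem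
  haveI : Nonempty (Fin 1) := ⟨0⟩
  exact rgd_rankOne (rgdC_model M hA hp0 (CoxeterMatrix.B 1).toCoxeterSystem) (WittModel.G1_eq_top _ (by omega) _) hK

theorem pgood_C_two {K : Type v} [Group K] [Finite K] (M : Model Fr K) {p : ℕ} (hA : AmbT Fr p M.I) [Finite V]
    [Fact p.Prime] [CharP F p] {p0 : Fr.Adm} (hp0 : p0.c ≠ 0) (hn : n = 2) (hK : p = 2 → Rk2 K) :
    PGood.{u} p K := by
  subst hn
  have hWf : Finite (CoxeterMatrix.B 2).Group := TypeC.finite_W (CoxeterMatrix.B 2).toCoxeterSystem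
  exact rgd_rankTwo (rgdC_model M hA hp0 (CoxeterMatrix.B 2).toCoxeterSystem) (WittModel.G1_eq_top _ (by omega) _)
    (i := 0) (j := 1) (by decide) (by decide) hK

theorem card_X_model {K : Type v} [Group K] (M : Model Fr K) {p : ℕ} (hA : AmbT Fr p M.I) [Finite V]
    [Fact p.Prime] [CharP F p] {p0 : Fr.Adm} (hp0 : p0.c ≠ 0) (i : Fin n) :
    Nat.card (WittModel.X M (sr i)) = Nat.card (PG Fr (i, true) (TypeC.nx i)) := by
  have : Finite (V ≃ₗ[F] V) := Finite.of_injective (fun g : V ≃ₗ[F] V => (g : V → V)) DFunLike.coe_injective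
  have hWf : Finite (CoxeterMatrix.B n).Group := TypeC.finite_W (CoxeterMatrix.B n).toCoxeterSystem
  have Rd := RGDLib.rgd_restrict (rgdC hA hp0 (CoxeterMatrix.B n).toCoxeterSystem) M.I (fun x _ => hA.rg_le x)
    (fun i => WittAll.nn_mem hA p0 i)
  have h1 := CardSup.card_map_X Rd M.φ (WittAll.ker_le_center M) (isRoot_sr _ _ i)
  refine h1.trans ?_
  rw [Nat.card_congr (Subgroup.subgroupOfEquivOfLe (hA.rg_le (sr i))).toEquiv, WittRGD.rg_sr]

theorem card_ZG (a : Fin n × Bool) : Nat.card (ZG Fr a) = Nat.card Fr.Adm := by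
  symm
  refine Nat.card_congr (Equiv.ofBijective (fun t : Fr.Adm => (⟨Fr.Z a t, t, rfl⟩ : ZG Fr a)) ⟨?_, ?_⟩)
  · intro s t e
    have e1 : Fr.Z a s = Fr.Z a t := congrArg Subtype.val e
    have e2 := Z_apply_neg Fr a s
    rw [e1, Z_apply_neg Fr a t, add_assoc, add_assoc] at e2
    have e3 := add_left_cancel e2
    have hη := Fr.η_ne a
    -- pair with `b (neg a)`
    have key : ∀ u : Fr.Adm, H.h (Fr.η a • u.w + (u.c * Fr.η a) • Fr.b a) (Fr.b (neg a)) =
        u.c * Fr.η a * Fr.η (neg a) := by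
      intro u
      rw [H.add_left, H.smul_left, H.smul_left, Fr.h0' _ (Fr.ok_mem u.ok), mul_zero, zero_add, Fr.hb_self_neg]
    have e4 := key t
    rw [e3, key s] at e4
    have hc : s.c = t.c := by
      have h1 : Fr.η a * Fr.η (neg a) ≠ 0 := mul_ne_zero hη (Fr.η_ne _)
      rw [mul_assoc, mul_assoc] at e4
      exact mul_right_cancel₀ h1 e4
    rw [hc] at e3
    have e5 : Fr.η a • t.w = Fr.η a • s.w := add_right_cancel e3
    have hw : t.w = s.w := by
      have h1 := congrArg (fun v => (Fr.η a)⁻¹ • v) e5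
      simpa [smul_smul, inv_mul_cancel₀ hη] using h1
    exact Frame.Adm.ext hw.symm hc
  · rintro ⟨_, t, rfl⟩
    exact ⟨t, rfl⟩

end Model

theorem pgood_C_card {F : Type*} [Field F] {V : Type*} [AddCommGroup V] [Module F V] {H : HForm F V}
    {Fr : Frame H (Fin 2)} {K : Type v} [Group K] [Finite K] (M : Model Fr K) {p : ℕ} (hA : AmbT Fr p M.I) [Finite V]
    [Fact p.Prime] [CharP F p] {p0 : Fr.Adm} (hp0 : p0.c ≠ 0) (hc : Nat.card F ≠ Nat.card Fr.Adm) :
    PGood.{u} p K := by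
  have hWf : Finite (CoxeterMatrix.B 2).Group := TypeC.finite_W (CoxeterMatrix.B 2).toCoxeterSystem
  refine rgd_card (rgdC_model M hA hp0 (CoxeterMatrix.B 2).toCoxeterSystem) (WittModel.G1_eq_top _ (by omega) _)
    (i := 0) (j := 1) ?_
  rw [card_X_model M hA hp0, card_X_model M hA hp0]
  have h0 : TypeC.nx (0 : Fin 2) = (1, false) := by decide
  have h1 : TypeC.nx (1 : Fin 2) = (1, true) := by decide
  rw [h0, h1, PG_self, PG_ne Fr (by decide), card_ZG, CardWitt.card_XG Fr (by decide)]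
  exact hc

/-! ### Unitary groups -/

section Unitary

open Cfsg.Agent.TitsThree Cfsg.Agent.TitsThree.KSideU Cfsg.Agent.LieClassical.HermBasic Cfsg.Agent.Nodes.WittBlock

variable {F : Type} [Field F] [Fintype F] {q N m : ℕ} (hF : Fintype.card F = q ^ 2)

theorem card_adm_even (W : WFrame (PU hF N) m) (hW : Blocks hF W) (hN : N = 2 * m) :
    Nat.card F ≠ Nat.card (toFrame W).Adm := by
  intro hc
  have hfin : Finite (toFrame W).Adm := by
    apply Nat.finite_of_card_ne_zero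
    rw [← hc]
    exact Nat.card_pos.ne'
  have hinj : Function.Injective (fun a : (toFrame W).Adm => a.c) := by
    intro a b hab
    exact Frame.Adm.ext ((CardWitt.w_eq_zero hF W hW hN a).trans (CardWitt.w_eq_zero hF W hW hN b).symm) hab
  have hsurj := (hinj.bijective_of_nat_card_le hc.le).2
  -- then `c + c ^ q = 0` for all `c`
  have h1 : ∀ c : F, c + c ^ q = 0 := by
    intro c
    obtain ⟨a, rfl⟩ := hsurj c
    have h2 := a.ok.2
    have h3 := CardWitt.w_eq_zero hF W hW hN a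
    rw [h3] at h2
    have h4 : a.c + a.c ^ q = -hermForm N F q 0 0 := h2
    rw [h4]
    simp [hermForm]
  obtain ⟨b, hb⟩ := exists_trace_eq hF (c := (-1 : F)) (by rw [neg_pow_q hF, one_pow])
  rw [h1] at hb
  have h3 : (1 : F) = 0 := by
    have := congrArg Neg.neg hb
    simpa using this.symm
  exact one_ne_zero h3

theorem card_adm_odd (W : WFrame (PU hF N) m) (hW : Blocks hF W) (hN : N = 2 * m + 1) :
    Nat.card F ≠ Nat.card (toFrame W).Adm := by
  classical
  obtain ⟨p0, hp0, hpw⟩ := exists_adm hF W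
  set v : Fin N → F := Pi.single ⟨2 * m, by omega⟩ 1 with hv
  have hv0 : v ∈ W.V0 := by
    have key : ∀ w : Fin N → F, w ⟨2 * m, by omega⟩ = 0 → hermForm N F q v w = 0 := by
      intro w hw
      unfold hermForm
      refine Finset.sum_eq_zero fun j _ => ?_
      by_cases hj : j = ⟨2 * m, by omega⟩
      · rw [hj, hw, zero_pow_q hF, mul_zero]
      · rw [hv, Pi.single_eq_of_ne hj, zero_mul]
    refine mem_V0_of_orth W (fun i => ?_) (fun i => ?_)
    · exact key _ (hW i ⟨2 * m, by omega⟩ (by have := i.2; simp only; omega) (by have := i.2; simp only; omega)).1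
    · exact key _ (hW i ⟨2 * m, by omega⟩ (by have := i.2; simp only; omega) (by have := i.2; simp only; omega)).2
  have hex : ∀ t : F, ∃ a : (toFrame W).Adm, a.w = t • v ∧ (t = 0 → a.c = 0) := by
    intro t
    by_cases ht : t = 0
    · subst ht
      exact ⟨1, by rw [Frame.Adm.one_w, zero_smul], fun _ => Frame.Adm.one_c⟩
    · obtain ⟨c, hc⟩ := (PU hF N).ex (t • v)
      exact ⟨⟨t • v, c, W.V0.smul_mem t hv0, hc⟩, rfl, fun h => absurd h ht⟩
  choose g hg hg0 using hex
  intro hc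
  have hfin : Finite (toFrame W).Adm := by
    apply Nat.finite_of_card_ne_zero
    rw [← hc]
    exact Nat.card_pos.ne'
  have hinj : Function.Injective g := by
    intro s t hst
    have h1 := congrArg Frame.Adm.w hst
    rw [hg, hg] at h1
    have h2 := congrFun h1 ⟨2 * m, by omega⟩
    simpa [hv] using h2
  have hsurj := (hinj.bijective_of_nat_card_le hc.symm.le).2
  obtain ⟨t, ht⟩ := hsurj p0
  have h1 : t = 0 := by
    have h2 := congrArg Frame.Adm.w ht
    rw [hg, hpw] at h2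
    have h3 := congrFun h2 ⟨2 * m, by omega⟩
    simpa [hv] using h3
  apply hp0
  rw [← ht]
  exact hg0 t h1

theorem pgood_PSU (hF : Fintype.card F = q ^ 2) (hN : 3 ≤ N) (hN2 : ¬ (N = 3 ∧ q = 2)) {p : ℕ} [Fact p.Prime]
    [hc : CharP F p] : PGood.{u} p (Cfsg.PSU N F q) := by
  obtain ⟨m, hm⟩ : ∃ m, N = 2 * m ∨ N = 2 * m + 1 := ⟨N / 2, by omega⟩
  obtain ⟨W, hW⟩ := exists_wframe hF hm
  obtain ⟨p0, hp0, -⟩ := exists_adm hF W
  have hA := AmbT.of_amb (amb_U hF W) p
  rcases Nat.lt_or_ge m 3 with h3 | h3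
  · obtain rfl | rfl : m = 1 ∨ m = 2 := by omega
    · obtain rfl : N = 3 := by omega
      exact pgood_C_one (TitsThree.KInstU.model hF (by omega) W) hA hp0 rfl
        (Or.inr (Or.inl ⟨F, _, _, hc, q, hF, fun h => hN2 ⟨rfl, h⟩, ⟨MulEquiv.refl _⟩⟩))
    · refine pgood_C_card (TitsThree.KInstU.model hF (by omega) W) hA hp0 ?_
      rcases hm with hm | hm
      · exact card_adm_even hF W hW hm
      · exact card_adm_odd hF W hW hm
  · exact pgood_C (TitsThree.KInstU.model hF (by omega) W) hA hp0 h3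

end Unitary

theorem pgood_PSp {F : Type} [Field F] [Fintype F] {m : ℕ} (hm : 2 ≤ m) {p : ℕ}
    [hp : Fact p.Prime] [hc : CharP F p] (h3 : m = 2 → 3 ≤ Fintype.card F) : PGood.{u} p (Cfsg.PSp m F) := by
  rcases Nat.lt_or_ge m 3 with h | h
  · obtain rfl : m = 2 := by omega
    refine pgood_C_two (TitsThree.KInstSp.model 2 F) (AmbT.of_amb amb_Sp p) (p0 := TitsThree.SpIdent.adm 1) one_ne_zero rfl
      fun hp2 => ?_
    subst hp2
    refine Or.inr (Or.inl ⟨F, inferInstance, inferInstance, hc, ?_, ⟨MulEquiv.refl _⟩⟩)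
    have h3' := h3 rfl
    obtain ⟨n, -, hn⟩ := FiniteField.card F 2
    rw [hn] at h3' ⊢
    have h4 : (n : ℕ) ≠ 1 := by
      intro h
      rw [h] at h3'
      norm_num at h3'
    have h5 : 2 ≤ (n : ℕ) := by have := n.pos; omega
    calc 4 = 2 ^ 2 := by norm_num
      _ ≤ 2 ^ (n : ℕ) := Nat.pow_le_pow_right (by norm_num) h5
  · exact pgood_C (TitsThree.KInstSp.model m F) (AmbT.of_amb amb_Sp p) (p0 := TitsThree.SpIdent.adm 1) one_ne_zero h

end Witt

section Orthogonal

open QuadraticMap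
open Cfsg.Agent.LieClassical Cfsg.Agent.LieClassical.OrthCore Cfsg.Agent.LieClassical.OrthTrans
open Cfsg.Agent.LieClassical.OrthSimple Cfsg.Agent.LieClassical.OrthFinite
open Cfsg.Agent.LieClassical.OrthForms
open Cfsg.Agent.TitsThree.KSideO Cfsg.Agent.TitsThree.StdData
open Cfsg.Agent.Nodes Cfsg.Agent.Nodes.WittAll Cfsg.Agent.Nodes.WittU Cfsg.Agent.Nodes.WittInst
  Cfsg.Agent.TitsThree.Siegel Cfsg.Agent.TitsThree.SiegelGen
  Cfsg.Agent.TitsThree.WittFrame Cfsg.Agent.TitsThree.WBridge Cfsg.Agent.TitsThree.WittWeyl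
  Cfsg.Agent.TitsThree.FrameCN

variable {F : Type*} [Field F] {m : ℕ}

theorem pgood_PO_odd [Finite F] (h2 : (2 : F) ≠ 0) (hm : 3 ≤ m) {p : ℕ} [Fact p.Prime] [CharP F p] :
    PGood.{u} p (Cfsg.POmega F (Cfsg.quadFormOdd m F)) := by
  rw [← coe_oddForm]
  have hG : Good (oddForm m F) := by
    apply good_of_finite (nondeg_oddForm m F h2)
    rw [Module.finrank_fintype_fun_eq_card, Fintype.card_sum, Fintype.card_sum, Fintype.card_fin,
      Fintype.card_unit]
    omega
  have hp : ((embOdd m F).ngt ⟨1, -1 ^ 2, rfl⟩).c ≠ 0 := by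
    change (1 : F)⁻¹ * (-1 ^ 2) ≠ 0
    simp
  exact pgood_C (model (wodd m F) hG ⟨_, hp⟩) (AmbT.of_amb (amb_O_of_two _ h2) p) hp hm

theorem pgood_PO_minus [Finite F] {a b : F} (hab : ∀ z₁ z₂ : F, z₁ ^ 2 + a * z₁ * z₂ + b * z₂ ^ 2 = 0 → z₁ = 0 ∧ z₂ = 0)
    (hm : 3 ≤ m) {p : ℕ} [Fact p.Prime] [CharP F p] :
    PGood.{u} p (Cfsg.POmega F (Cfsg.quadFormMinus m F a b)) := by
  rw [← coe_minusForm]
  have hG : Good (minusForm m F a b) := by
    apply good_of_finite (nondeg_minusForm m F a b hab)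
    rw [Module.finrank_fintype_fun_eq_card, Fintype.card_sum, Fintype.card_sum, Fintype.card_fin,
      Fintype.card_fin]
    omega
  have hp : ((embMinus m F a b hab).ngt ⟨(1, 0), -nf a b (1, 0), rfl⟩).c ≠ 0 := by
    change (1 : F)⁻¹ * (-nf a b (1, 0)) ≠ 0
    simp [nf]
  have hA : AmbT (toFrame (wminus m F a b hab)) p (E (minusForm m F a b)) := by
    by_cases h2 : (2 : F) = 0
    · have hp2 : p = 2 := by
        have h3 : CharP F 2 := CharTwo.of_one_ne_zero_of_two_eq_zero one_ne_zero h2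
        exact CharP.eq F ‹CharP F p› h3
      subst hp2
      exact ambT_O _ fun g hg hg2 hb => fixp_minus a b hab h2 (by omega) hG hg hg2 hb
    · exact AmbT.of_amb (amb_O_of_two _ h2) p
  exact pgood_C (model (wminus m F a b hab) hG ⟨_, hp⟩) hA hp hm

theorem pgood_PO_plus [Finite F] (n : ℕ) {p : ℕ} [Fact p.Prime] [CharP F p] :
    PGood.{u} p (Cfsg.POmega F (Cfsg.quadFormPlus (n + 4) F)) := by
  rw [← coe_plusForm]
  have hG : Good (plusForm (n + 4) F) := by
    apply good_of_finite (nondeg_plusForm (n + 4) F)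
    rw [Module.finrank_fintype_fun_eq_card, Fintype.card_sum, Fintype.card_fin]
    omega
  have hWf : Finite (Nodes.TypeD.M (n + 2)).Group := Nodes.TypeD.finite_W (Nodes.TypeD.M (n + 2)).toCoxeterSystem
  exact rgd_val (rgdD_model (wplus (n + 4) F) hG (amb_plus _) (adm_plus _) (Nodes.TypeD.M (n + 2)).toCoxeterSystem)
    (G1D_eq_top (wplus (n + 4) F) (toPOmega hG) (toPOmega_surjective hG) (adm_plus _) _) (val_D n)

end Orthogonal

/-! ### Exceptional and twisted groups of rank at least three -/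

section Exc

open Cfsg.Lie Cfsg.Agent.ChevalleyStructure Cfsg.Agent.ChevalleyStructure.Elts
open Cfsg.Agent.Nodes.RGDChev

theorem pgood_chev {D : ChevalleyDatum} {l : ℕ} {M : CoxeterMatrix (Fin l)} (hp : IsType D l M) {K : Type} [Field K]
    [Finite K] (p : ℕ) [CharP K p] {i j : Fin l} (hv : val M i ≠ val M j) : PGood.{u} p ↥(D.group K) := by
  have : Fact p.Prime := ⟨CharP.char_is_prime K p⟩
  have : Finite M.Group := finite_W hp M.toCoxeterSystem
  exact rgd_val (rgd (K := K) hp M.toCoxeterSystem p) (G1_eq_top hp _) hv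

theorem pgood_twE6 {K : Type} [Field K] [Fintype K] {q : ℕ} (hq : IsPrimePow q) (hK : Fintype.card K = q ^ 2)
    (p : ℕ) [CharP K p] : PGood.{u} p ↥(Lie.twistedE6 K q) := by
  have : Fact p.Prime := ⟨CharP.char_is_prime K p⟩
  obtain ⟨φ, hφ, hqq⟩ := ChevalleyStructure.TwE6Basic.exists_frob hq hK
  have : Finite CoxeterMatrix.F₄.Group := Nodes.RGDFold.finite_W (hp := Nodes.RGDTwE6.hp) CoxeterMatrix.F₄.toCoxeterSystem
    Nodes.RGDTwE6.isCartan Nodes.RGDTwE6.foldData
  exact rgd_val (Nodes.RGDTwE6.rgd CoxeterMatrix.F₄.toCoxeterSystem hφ hqq p)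
    (Nodes.RGDTwE6.G1_eq_top CoxeterMatrix.F₄.toCoxeterSystem hφ hqq)
    (i := 0) (j := 1) (by decide +kernel)

theorem pgood_twD4 {K : Type} [Field K] [Fintype K] {q : ℕ} (hq : IsPrimePow q) (hK : Fintype.card K = q ^ 3)
    (p : ℕ) [CharP K p] : PGood.{u} p ↥(Lie.twistedD4 K q) := by
  have : Fact p.Prime := ⟨CharP.char_is_prime K p⟩
  obtain ⟨φ, hφ⟩ := ChevalleyStructure.D4Fixed.exists_frob hq hK
  have : Finite CoxeterMatrix.G₂.Group := Nodes.RGDFold.finite_W (hp := Nodes.RGDTwD4.hp) CoxeterMatrix.G₂.toCoxeterSystem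
    Nodes.RGDTwD4.isCartan Nodes.RGDTwD4.foldData
  exact rgd_card (Nodes.RGDTwD4.rgd CoxeterMatrix.G₂.toCoxeterSystem hK hφ p)
    (Nodes.RGDTwD4.G1_eq_top CoxeterMatrix.G₂.toCoxeterSystem hK hφ)
    (i := 1) (j := 0) (KFacts.TwDFour.Out.card_ne hφ hK hq.one_lt)

open Cfsg.Agent.KFacts.RgdAut Cfsg.Agent.KFacts.RgdDiag

theorem hG2 : IsType chevG2 2 CoxeterMatrix.G₂ := by simp [IsType, typeList]

theorem comm_6_11 {K : Type u} [Field K] (t u : K) :
    xG hG2.inList 11 u * xG hG2.inList 6 t = xG hG2.inList 6 t * xG hG2.inList 11 u := by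
  have h := UnipProd.xG_comm hG2.inList (F := K) (r := 6) (s := 11) (by decide +kernel) (by decide +kernel)
    (by decide) (by decide +kernel) t u
  have h2 : chevG2.commWord K 6 11 t u = [] := by
    show (chevG2.commTerms 6 11).map _ = []
    have h3 : chevG2.commTerms 6 11 = [] := by decide +kernel
    rw [h3, List.map_nil]
  rw [h2] at h
  rw [h]
  exact mul_one _

theorem ncomm_7_9 {K : Type u} [Field K] [CharP K 2] :
    xG hG2.inList 9 (1 : K) * xG hG2.inList 7 1 ≠ xG hG2.inList 7 (1 : K) * xG hG2.inList 9 1 := by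
  intro hc
  have h := UnipProd.xG_comm hG2.inList (F := K) (r := 7) (s := 9) (by decide +kernel) (by decide +kernel)
    (by decide) (by decide +kernel) 1 1
  rw [hc] at h
  have h1 := left_eq_mul.1 h
  have h3 : chevG2.commTerms 7 9 = [(10, 3, 1, 1)] := by decide +kernel
  have h2 : chevG2.commWord K 7 9 1 1 = [(10, ((3 : ℤ) : K) * (-1) ^ 1 * 1 ^ 1)] := by
    show (chevG2.commTerms 7 9).map _ = _
    rw [h3]
    rfl
  rw [h2, wordG_cons, wordG_nil, mul_one, xG_eq_one_iff hG2.inList (r := 10) (by decide +kernel)] at h1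
  have h4 : ((3 : ℤ) : K) = 1 := by
    have : (2 : K) = 0 := CharTwo.two_eq_zero
    push_cast
    linear_combination this
  rw [h4] at h1
  simp at h1

theorem g2_sep {K : Type u} [Field K] [Finite K] [CharP K 2] {β : MulAut ↥(chevG2.group K)} {σ : Equiv.Perm (Fin 2)}
    (D : Diag ((chevG2.diagonalSubgroup K).subgroupOf (chevG2.group K))
      (fun x => (XV chevG2 2 K x).subgroupOf (chevG2.group K)) β σ) : σ 0 ≠ 1 := by
  have hp2 : Fact (Nat.Prime 2) := ⟨Nat.prime_two⟩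
  have hW : Finite CoxeterMatrix.G₂.Group := finite_W hG2 CoxeterMatrix.G₂.toCoxeterSystem
  have R := rgd (K := K) hG2 CoxeterMatrix.G₂.toCoxeterSystem 2
  intro hσ
  have hσ1 : σ 1 = 0 := by
    have h1 : σ 1 ≠ 1 := fun h => by
      have := σ.injective (h.trans hσ.symm)
      exact absurd this (by decide)
    revert h1
    generalize σ 1 = a
    revert a
    decide
  set cs := CoxeterMatrix.G₂.toCoxeterSystem with hcs
  have hM := D.matrix R
  have e1 : rep cs hG2.isCartan (cs.simple 0 * cs.simple 1) (sr 0) = vec chevG2 2 9 := by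
    rw [rep_mul_apply, ← vec_simple hG2, rep_vec hG2 cs, rep_vec hG2 cs]
    · congr 1
    · decide +kernel
    · decide +kernel
  have e2 : rep cs hG2.isCartan (cs.simple 1 * cs.simple 0) (sr 1) = vec chevG2 2 11 := by
    rw [rep_mul_apply, ← vec_simple hG2, rep_vec hG2 cs, rep_vec hG2 cs]
    · congr 1
    · decide +kernel
    · decide +kernel
  have e3 : hat cs σ hM (cs.simple 0 * cs.simple 1) = cs.simple 1 * cs.simple 0 := by
    rw [map_mul, hat_simple, hat_simple, hσ, hσ1]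
  have k1 := fun x => D.root R hM (cs.simple 0 * cs.simple 1) 0 x
  rw [e3, e1, hσ, e2] at k1
  have hx : (⟨xG hG2.inList 7 (1 : K), xG_mem_group hG2.inList _ _⟩ : ↥(chevG2.group K)) ∈
      (XV chevG2 2 K (sr 0)).subgroupOf (chevG2.group K) := by
    rw [Subgroup.mem_subgroupOf, XV_sr hG2]
    exact xG_mem_rootSubgroup hG2.inList _ _
  have hy : (⟨xG hG2.inList 9 (1 : K), xG_mem_group hG2.inList _ _⟩ : ↥(chevG2.group K)) ∈
      (XV chevG2 2 K (vec chevG2 2 9)).subgroupOf (chevG2.group K) := by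
    rw [Subgroup.mem_subgroupOf, XV_vec hG2 K (by decide +kernel)]
    exact xG_mem_rootSubgroup hG2.inList _ _
  have hx' := (D.pos 0 _).2 hx
  rw [hσ, Subgroup.mem_subgroupOf, XV_sr hG2, mem_rootSubgroup_iff hG2.inList] at hx'
  have hy' := (k1 _).2 hy
  rw [Subgroup.mem_subgroupOf, XV_vec hG2 K (by decide +kernel), mem_rootSubgroup_iff hG2.inList] at hy'
  obtain ⟨t, ht⟩ := hx'
  obtain ⟨u, hu⟩ := hy'
  refine ncomm_7_9 (K := K) ?_
  have h1 : ∀ a b : ↥(chevG2.group K), β a * β b = β b * β a → a.1 * b.1 = b.1 * a.1 := by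
    intro a b h
    rw [← map_mul, ← map_mul] at h
    exact congrArg Subtype.val (β.injective h)
  refine h1 ⟨xG hG2.inList 9 (1 : K), xG_mem_group hG2.inList _ _⟩ ⟨xG hG2.inList 7 (1 : K), xG_mem_group hG2.inList _ _⟩
    (Subtype.ext ?_)
  rw [Subgroup.coe_mul, Subgroup.coe_mul, ht, hu]
  exact comm_6_11 t u


theorem pgood_G2 {K : Type} [Field K] [Finite K] (p : ℕ) [CharP K p] : PGood.{u} p ↥(chevG2.group K) := by
  have : Fact p.Prime := ⟨CharP.char_is_prime K p⟩
  have : Finite CoxeterMatrix.G₂.Group := finite_W hG2 CoxeterMatrix.G₂.toCoxeterSystem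
  refine rgd_rankTwo_sep (rgd (K := K) hG2 CoxeterMatrix.G₂.toCoxeterSystem p) (G1_eq_top hG2 _) (i := 0) (j := 1)
    (by decide) (by decide) fun hp β σ D => ?_
  subst hp
  exact g2_sep D

theorem pgood_exc {p : ℕ} {G : Type v} [Group G] (hG : IsExceptionalChevChar p G) : PGood.{u} p G := by
  obtain ⟨F, _, _, _, ⟨-, ⟨e⟩⟩ | ⟨⟨e⟩⟩ | ⟨⟨e⟩⟩ | ⟨⟨e⟩⟩ | ⟨⟨e⟩⟩⟩ := hG
  · exact (pgood_G2 (K := F) p).congr e.symm
  · exact (pgood_chev (D := chevF4) (l := 4) (M := CoxeterMatrix.F₄) (by simp [IsType, typeList]) (K := F) p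
      (i := 0) (j := 1) (by decide +kernel)).congr e.symm
  · exact (pgood_chev (D := chevE6) (l := 6) (M := CoxeterMatrix.E₆) (by simp [IsType, typeList]) (K := F) p
      (i := 0) (j := 3) (by decide +kernel)).congr e.symm
  · exact (pgood_chev (D := chevE7) (l := 7) (M := CoxeterMatrix.E₇) (by simp [IsType, typeList]) (K := F) p
      (i := 0) (j := 3) (by decide +kernel)).congr e.symm
  · exact (pgood_chev (D := chevE8) (l := 8) (M := CoxeterMatrix.E₈) (by simp [IsType, typeList]) (K := F) p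
      (i := 0) (j := 3) (by decide +kernel)).congr e.symm

theorem pgood_tw {p : ℕ} {G : Type v} [Group G] (hG : IsTwistedE6D4Char p G) : PGood.{u} p G := by
  obtain ⟨K, _, _, _, q, hq, ⟨hK, ⟨e⟩⟩ | ⟨hK, ⟨e⟩⟩⟩ := hG
  · exact (pgood_twE6 hq hK p).congr e.symm
  · exact (pgood_twD4 hq hK p).congr e.symm

end Exc

/-- **The families with a root group datum** -/
theorem pgood_lie {p : ℕ} (hp : p.Prime) {G : Type v} [Group G] (h : IsLieTypeChar p G)
    (hSz : p = 2 → Lie.IsoSuzuki G → PGood.{u} p G) (hF : p = 2 → Lie.Iso2F4 G → PGood.{u} p G)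
    (hR : p = 3 → Lie.IsoRee G → PGood.{u} p G) : PGood.{u} p G := by
  have hpf : Fact p.Prime := ⟨hp⟩
  rcases h with h | h | h | h | h | h | h | h | ⟨hp, h⟩ | ⟨hp, h⟩ | ⟨hp, h⟩
  · obtain ⟨F, _, _, _, n, hn, h4, ⟨e⟩⟩ := h
    exact (pgood_PSL n hn h4).congr e.symm
  · obtain ⟨F, _, _, _, m, hm, h3, ⟨e⟩⟩ := h
    exact (pgood_PSp hm h3).congr e.symm
  · obtain ⟨F, _, _, _, n, q, hF, hn, h3, ⟨e⟩⟩ := h
    exact (pgood_PSU hF hn h3).congr e.symm
  · obtain ⟨F, _, _, _, m, hm, hodd, ⟨e⟩⟩ := h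
    have h20 : (2 : F) ≠ 0 := by
      intro h20
      have h3 : CharP F 2 := CharTwo.of_one_ne_zero_of_two_eq_zero one_ne_zero h20
      obtain ⟨n, -, hn⟩ := FiniteField.card F 2
      rw [hn] at hodd
      exact absurd hodd (by
        rw [Nat.not_odd_iff_even]
        exact even_two.pow_of_ne_zero n.ne_zero)
    exact (pgood_PO_odd h20 hm).congr e.symm
  · obtain ⟨F, _, _, _, m, hm, ⟨e⟩⟩ := h
    obtain ⟨n, rfl⟩ : ∃ n, m = n + 4 := ⟨m - 4, by omega⟩
    exact (pgood_PO_plus n).congr e.symm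
  · obtain ⟨F, _, _, _, m, a, b, hm, hab, ⟨e⟩⟩ := h
    exact (pgood_PO_minus hab (by omega)).congr e.symm
  · exact pgood_exc h
  · exact pgood_tw h
  · exact hSz hp h
  · exact hF hp h
  · exact hR hp h

end Cfsg.Agent.H223.PMinFam
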