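import Mathlib
import Cfsg.Agent.H223.PMinTits
import Cfsg.Agent.H223.PMinFam
import Cfsg.Agent.S1077
import Cfsg.Agent.S1059
import Cfsg.Agent.S1057
import Cfsg.Agent.S0815
import Cfsg.Agent.S0280
import Cfsg.Agent.S0283
import Cfsg.Agent.ChevalleyStructure.NineField

set_option autoImplicit false
set_option linter.style.haveILetI false
set_option linter.unusedSectionVars false

/-!
# p-minimal groups: `U₃(3) = G₂(2)'`
-/

namespace Cfsg.Agent.H223.PMinU33

open Subgroup Cfsg Cfsg.Agent.H223.PMinSys Cfsg.Agent.H223.PMinGood Cfsg.Agent.H223.PMinTwo Cfsg.Agent.H223.PMinTits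
open CoxeterSystem Cfsg.Agent.ChevalleyStructure.CoxeterGeom Cfsg.Agent.Tits.Roots Cfsg.Agent.Tits.Core
  Cfsg.Agent.Tits.RootComb Cfsg.Agent.Nodes.Comb Cfsg.Agent.Nodes.Reps Cfsg.Agent.Nodes.BNOf Cfsg.Agent.FixBN
open Cfsg.Lie Cfsg.Agent.ChevalleyStructure Cfsg.Agent.ChevalleyStructure.Elts
open Cfsg.Agent.Nodes.RGDChev Cfsg.Agent.Nodes.LeviDec

universe u v w

/-- the order of a Sylow subgroup -/
theorem card_of_index {G : Type*} [Group G] [Finite G] {p : ℕ} [hp : Fact p.Prime] {U : Subgroup G} (hU : IsPGroup p U)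
    (hi : ¬ p ∣ U.index) {a m : ℕ} (hG : Nat.card G = p ^ a * m) (hm : ¬ p ∣ m) : Nat.card U = p ^ a := by
  have h1 : Nat.card (hU.toSylow hi) = p ^ (Nat.card G).factorization p := Sylow.card_eq_multiplicity _
  have hm0 : m ≠ 0 := by
    rintro rfl
    exact hm (dvd_zero p)
  rw [hG, Nat.factorization_mul (pow_ne_zero _ hp.1.ne_zero) hm0, Finsupp.add_apply, hp.1.factorization_pow,
    Finsupp.single_eq_same, Nat.factorization_eq_zero_of_not_dvd hm, add_zero] at h1
  exact h1

/-- `G₂(2)` -/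
abbrev MM : Type := ↥(Lie.chevG2.group (ZMod 2))

abbrev F9 : Type := Cfsg.Agent.ChevalleyStructure.NineField.F9

theorem card_F9 : Fintype.card F9 = 3 ^ 2 := Cfsg.Agent.ChevalleyStructure.NineField.F9.card_F9

theorem card_MM : Nat.card MM = 12096 := by
  have := Cfsg.Agent.S1059.result (F := ZMod 2) (q := 2) (ZMod.card 2)
  rw [this]
  norm_num

theorem exists_psu : Nonempty (↥(commutator MM) ≃* PSU 3 F9 3) :=
  Cfsg.Agent.S1057.result (F := ZMod 2) (K := F9) (ZMod.card 2) card_F9

theorem card_comm : Nat.card ↥(commutator MM) = 6048 := by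
  obtain ⟨e⟩ := exists_psu
  have h := Cfsg.Agent.S0280.result (F := F9) (q := 3) card_F9 3 (by norm_num)
  rw [Nat.card_congr e.toEquiv]
  rw [Finset.prod_range_succ, Finset.prod_range_succ, Finset.prod_range_succ, Finset.prod_range_zero] at h
  norm_num at h
  omega

theorem index_comm : (commutator MM).index = 2 := by
  have h := Subgroup.card_mul_index (commutator MM)
  rw [card_MM, card_comm] at h
  omega

theorem card_mulAut : Nat.card (MulAut ↥(commutator MM)) = 12096 := by
  obtain ⟨e⟩ := exists_psu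
  have : Fact (Nat.Prime 3) := ⟨Nat.prime_three⟩
  rw [Nat.card_congr (MulAut.congr e).toEquiv]
  have h := S0815.result (F := F9) 3 1 le_rfl (by norm_num : (3 : ℕ) = 3 ^ 1) card_F9 3 le_rfl (by norm_num)
  rw [h, ← Nat.card_congr e.toEquiv, card_comm]
  norm_num

theorem simple_comm : IsSimpleGroup ↥(commutator MM) := by
  obtain ⟨e⟩ := exists_psu
  have := S0283.result card_F9 3 le_rfl (by norm_num)
  exact e.isSimpleGroup

theorem center_of_card {G : Type*} [Group G] [Finite G] [hs : IsSimpleGroup G] (h : ¬ (Nat.card G).Prime) :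
    center G = ⊥ := by
  rcases (inferInstance : (center G).Normal).eq_bot_or_eq_top with h1 | h1
  · exact h1
  · exfalso
    apply h
    letI : CommGroup G := { (inferInstance : Group G) with
      mul_comm := fun a b => (Subgroup.mem_center_iff.1 (h1 ▸ Subgroup.mem_top a : a ∈ center G) b).symm }
    exact IsSimpleGroup.prime_card

theorem center_comm : center ↥(commutator MM) = ⊥ := by
  have := simple_comm
  have : Finite ↥(commutator MM) := Nat.finite_of_card_ne_zero (by rw [card_comm]; norm_num)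
  refine center_of_card ?_
  rw [card_comm]
  norm_num

theorem pgood_MM : PGood.{u} 2 ↥(commutator MM) := by
  have hp2 : Fact (Nat.Prime 2) := ⟨Nat.prime_two⟩
  have hp3 : Fact (Nat.Prime 3) := ⟨Nat.prime_three⟩
  have hfin : Finite MM := Nat.finite_of_card_ne_zero (by rw [card_MM]; norm_num)
  have hs' : IsSimpleGroup (commutator MM) := simple_comm
  have hcK : center ↥(commutator MM) = ⊥ := center_comm
  have hZ : center MM = ⊥ := S1077.center_group_eq_bot (by simp [InList])
  have hA : Nat.card (MulAut (commutator MM)) = 12096 := card_mulAut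
  have hW : Finite CoxeterMatrix.G₂.Group := finite_W PMinFam.hG2 CoxeterMatrix.G₂.toCoxeterSystem
  have R := rgd (K := ZMod 2) PMinFam.hG2 CoxeterMatrix.G₂.toCoxeterSystem 2
  have hG1 := G1_eq_top (K := ZMod 2) PMinFam.hG2 CoxeterMatrix.G₂.toCoxeterSystem
  have hB := KFacts.RgdAut.normalizer_U' R (KFacts.RgdFilt.GG_eq_top hG1)
  set Z := PMinRgd.psys R hG1 with hZ'
  have hU : Nat.card Z.U = 2 ^ 6 := card_of_index Z.isP Z.idx (m := 189) (by rw [card_MM]; norm_num) (by norm_num)
  have hUC : Z.U ⊔ commutator MM = ⊤ := by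
    rw [← Subgroup.index_eq_one]
    have h1 : (Z.U ⊔ commutator MM).index ∣ 2 :=
      (Subgroup.index_dvd_of_le le_sup_right).trans index_comm.dvd
    rcases (Nat.dvd_prime Nat.prime_two).1 h1 with h | h
    · exact h
    · exfalso
      apply Z.idx
      exact h.symm.dvd.trans (Subgroup.index_dvd_of_le le_sup_left)
  have hle : ∀ J, Z.U ≤ (Z.e J : Subgroup MM) := fun J => le_trans le_normalizer (Z.e J).2
  have htop : ((Z.e Set.univ : {Q : Subgroup MM // normalizer (Z.U : Set MM) ≤ Q}) : Subgroup MM) = ⊤ := by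
    have : (⟨⊤, le_top⟩ : {Q : Subgroup MM // normalizer (Z.U : Set MM) ≤ Q}) ≤ Z.e ⊤ := by
      rw [← Z.e.symm_apply_le]
      exact le_top
    exact top_le_iff.1 this
  have hne : ∀ J, J ≠ Set.univ → (Z.e J : Subgroup MM) ≠ ⊤ := by
    intro J hJ h
    apply hJ
    apply Z.e.injective
    apply Subtype.ext
    rw [h, htop]
  refine pgood_of_index_two (U := Z.U) (P := Z.e {0}) (Q := Z.e {1}) (a := 6) index_comm hZ hs' hcK hU ?_ ?_
    (hle _) (hle _) hUC (hne _ ?_) (hne _ ?_) ?_
  · rw [hA]; norm_num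
  · rw [card_comm]; norm_num
  · intro h
    have : (1 : Fin 2) ∈ ({0} : Set (Fin 2)) := by rw [h]; trivial
    exact absurd this (by simp)
  · intro h
    have : (0 : Fin 2) ∈ ({1} : Set (Fin 2)) := by rw [h]; trivial
    exact absurd this (by simp)
  · have h1 : normalizer (Z.U : Set MM) ≤ (Z.e {0} : Subgroup MM) ⊔ Z.e {1} := le_trans (Z.e {0}).2 le_sup_left
    obtain ⟨J, hJ⟩ := Z.e.surjective ⟨_, h1⟩
    have hJ' : (Z.e J : Subgroup MM) = (Z.e {0} : Subgroup MM) ⊔ Z.e {1} := congrArg Subtype.val hJ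
    have h2 : {0} ⊆ J := Z.e.le_iff_le.1 (show (Z.e {0} : Subgroup MM) ≤ Z.e J by rw [hJ']; exact le_sup_left)
    have h3 : {1} ⊆ J := Z.e.le_iff_le.1 (show (Z.e {1} : Subgroup MM) ≤ Z.e J by rw [hJ']; exact le_sup_right)
    have h4 : J = Set.univ := by
      rw [Set.eq_univ_iff_forall]
      intro i
      have : i = 0 ∨ i = 1 := by revert i; decide
      rcases this with rfl | rfl
      · exact h2 rfl
      · exact h3 rfl
    rw [← hJ', h4, htop]

theorem pgood_U33 {F : Type} [Field F] [Fintype F] (hF : Fintype.card F = 9) {G : Type v} [Group G]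
    (e : G ≃* PSU 3 F 3) : PGood.{u} 2 G := by
  obtain ⟨e'⟩ := S1057.result (F := ZMod 2) (K := F) (ZMod.card 2) hF
  exact pgood_MM.congr (e'.trans e.symm)

end Cfsg.Agent.H223.PMinU33
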