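import Mathlib
import Cfsg.Prelude.Def_EvenType
import Cfsg.Agent.H223.PMinU33
import Cfsg.Agent.H223.PMinSix
import Cfsg.Agent.H223.PMinTw

set_option autoImplicit false
set_option linter.style.haveILetI false
set_option linter.unusedSectionVars false

/-!
# p-minimal groups with a normal simple subgroup of Lie type in characteristic p
-/

namespace Cfsg.Agent.H223.PMinChev

open Subgroup Cfsg Cfsg.Agent.H223.PMinGood

universe u v

/-- every simple group of Lie type in characteristic `p` is good -/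
theorem pgood_chev {p : ℕ} (hp : p.Prime) {G : Type v} [Group G] (h : IsChevSimple p G) : PGood.{u} p G := by
  rcases h with h | ⟨rfl, h⟩ | ⟨rfl, F, _, _, hF, ⟨e⟩⟩
  · refine PMinFam.pgood_lie hp h ?_ ?_ ?_
    · rintro rfl h
      exact PMinTw.pgood_Sz h
    · rintro rfl h
      obtain ⟨K, _, _, m, hm, hK, ⟨e⟩⟩ := h
      exact (PMinTw.pgood_2F4 hK).congr e.symm
    · rintro rfl h
      exact PMinTw.pgood_Ree h
  · rcases h with ⟨⟨e⟩⟩ | ⟨F, _, _, hF, ⟨e⟩⟩ | h
    · exact PMinSix.pgood_A6 e
    · exact PMinU33.pgood_U33 hF e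
    · exact PMinTits.pgood_Tits h
  · exact PMinEight.pgood_L28 hF e

end Cfsg.Agent.H223.PMinChev
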